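import Cfsg.Agent.Lib.MetacyclicP.TwoGen.Setting
import Cfsg.Agent.Lib.Cores.Schmidt
import Cfsg.Agent.Lib.Cores.FPF
import Cfsg.Agent.Lib.Frobenius.Kernel

/-!
Minimal counterexamples to "every two elements generate a soluble subgroup implies soluble":
the maximal fixed-point-free `p'`-subgroups, and the resulting Frobenius complement.
-/

set_option autoImplicit false
set_option linter.all false
set_option maxHeartbeats 800000

namespace CfsgLib.MetacyclicP.TwoGen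

open scoped Pointwise commutatorElement
open Cfsg

variable {G : Type*} [Group G]

/-- A `p'`-subgroup `H = [H, a]`. -/
def Fam (p : ℕ) (a : G) (H : Subgroup G) : Prop :=
  ¬ p ∣ Nat.card H ∧ Subgroup.zpowers a ≤ Subgroup.normalizer (H : Set G) ∧
    ⁅H, Subgroup.zpowers a⁆ = H

/-- A maximal nontrivial member of the family. -/
def Top (p : ℕ) (a : G) (V : Subgroup G) : Prop :=
  Fam p a V ∧ V ≠ ⊥ ∧ ∀ H : Subgroup G, Fam p a H → V ≤ H → H = V

/-- `[O_{p'}(L), a]`. -/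
def vl (p : ℕ) (a : G) (L : Subgroup G) : Subgroup G := ⁅core p L, Subgroup.zpowers a⁆

theorem Fam.congr {p : ℕ} {a b : G} {H : Subgroup G}
    (h : Subgroup.zpowers a = Subgroup.zpowers b) (hH : Fam p a H) : Fam p b H := by
  unfold Fam at hH ⊢
  rwa [← h]

theorem Top.congr {p : ℕ} {a b : G} {V : Subgroup G}
    (h : Subgroup.zpowers a = Subgroup.zpowers b) (hV : Top p a V) : Top p b V :=
  ⟨hV.1.congr h, hV.2.1, fun H hH hle => hV.2.2 H (hH.congr h.symm) hle⟩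

theorem map_zpowers_conj (g a : G) :
    (Subgroup.zpowers a).map (MulAut.conj g).toMonoidHom = Subgroup.zpowers (g * a * g⁻¹) := by
  rw [MonoidHom.map_zpowers]; rfl

theorem map_map_conj (g h : G) (H : Subgroup G) :
    (H.map (MulAut.conj g).toMonoidHom).map (MulAut.conj h).toMonoidHom
      = H.map (MulAut.conj (h * g)).toMonoidHom := by
  rw [Subgroup.map_map]
  congr 1
  ext x
  simp [mul_assoc]

theorem map_conj_eq_self {g : G} {H : Subgroup G} (hg : g ∈ Subgroup.normalizer (H : Set G)) :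
    H.map (MulAut.conj g).toMonoidHom = H := by
  ext x
  rw [Subgroup.mem_map]
  constructor
  · rintro ⟨y, hy, rfl⟩; exact CfsgLib.CoprimeAction.conj_mem hg hy
  · intro hx
    exact ⟨g⁻¹ * x * g, CfsgLib.CoprimeAction.conj_mem' hg hx, by simp [mul_assoc]⟩

theorem Fam.conj {p : ℕ} {a : G} {H : Subgroup G} (g : G) (hH : Fam p a H) :
    Fam p (g * a * g⁻¹) (H.map (MulAut.conj g).toMonoidHom) := by
  obtain ⟨h1, h2, h3⟩ := hH
  refine ⟨?_, ?_, ?_⟩
  · rwa [Subgroup.card_map_of_injective (MulAut.conj g).injective]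
  · rw [← map_zpowers_conj]
    refine (Subgroup.map_mono h2).trans ?_
    exact Subgroup.le_normalizer_map _
  · rw [← map_zpowers_conj, ← Subgroup.map_commutator, h3]

theorem Top.conj {p : ℕ} {a : G} {V : Subgroup G} (g : G) (hV : Top p a V) :
    Top p (g * a * g⁻¹) (V.map (MulAut.conj g).toMonoidHom) := by
  refine ⟨hV.1.conj g, fun h => hV.2.1
    ((Subgroup.map_eq_bot_iff_of_injective _ (MulAut.conj g).injective).1 h), fun H hH hle => ?_⟩
  have h1 : H.map (MulAut.conj g⁻¹).toMonoidHom = V := by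
    refine hV.2.2 _ ?_ ?_
    · have := hH.conj g⁻¹
      rwa [show g⁻¹ * (g * a * g⁻¹) * g⁻¹⁻¹ = a by group] at this
    · have := Subgroup.map_mono (f := (MulAut.conj g⁻¹).toMonoidHom) hle
      rwa [map_map_conj, inv_mul_cancel,
        map_conj_eq_self (one_mem _)] at this
  rw [← h1, map_map_conj, mul_inv_cancel, map_conj_eq_self (one_mem _)]

theorem mem_normalizer_zpowers {a c : G} (h : Commute a c) :
    c ∈ Subgroup.normalizer (Subgroup.zpowers a : Set G) := by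
  refine Subgroup.mem_normalizer_iff.2 fun x => ⟨?_, fun hx => ?_⟩
  · rintro ⟨i, rfl⟩
    exact ⟨i, (mul_inv_eq_iff_eq_mul.2 (h.symm.zpow_right i).eq).symm⟩
  · obtain ⟨i, hi⟩ := hx
    refine ⟨i, mul_left_cancel (a := c) (mul_right_cancel (b := c⁻¹) ?_)⟩
    rw [← hi]
    exact mul_inv_eq_iff_eq_mul.2 (h.symm.zpow_right i).eq

variable [Finite G] {p : ℕ} [hp : Fact p.Prime]

theorem zpowers_conj_eq {a n : G} (hn : n ∈ Subgroup.normalizer (Subgroup.zpowers a : Set G)) :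
    Subgroup.zpowers (n * a * n⁻¹) = Subgroup.zpowers a := by
  rw [← map_zpowers_conj, map_conj_eq_self hn]

variable (hC : Crit G p)

include hC

theorem Crit.fam_fpf {a : G} (ha : Good p a) {H : Subgroup G} (hH : Fam p a H) {h : G}
    (hh : h ∈ H) (hc : Commute a h) : h = 1 :=
  (hC.fpf_of_commutator_eq ha hH.1 (hH.2.1 (Subgroup.mem_zpowers a)) hH.2.2).1 h hh hc

theorem Crit.fam_nilpotent {a : G} (ha : Good p a) {H : Subgroup G} (hH : Fam p a H) :
    Group.IsNilpotent H :=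
  (hC.fpf_of_commutator_eq ha hH.1 (hH.2.1 (Subgroup.mem_zpowers a)) hH.2.2).2

theorem Crit.fam_of_le {a : G} (ha : Good p a) {H U : Subgroup G} (hH : Fam p a H) (hUH : U ≤ H)
    (haU : Subgroup.zpowers a ≤ Subgroup.normalizer (U : Set G)) : Fam p a U := by
  have hU : ¬ p ∣ Nat.card U := fun h => hH.1 (h.trans (Subgroup.card_dvd_of_le hUH))
  refine ⟨hU, haU, ?_⟩
  have h := CfsgLib.CoprimeAction.commutator_sup_centralizer haU (coprime_zpowers ha hU)
    (Or.inl (CfsgLib.CoprimeAction.isSolvable_zpowers a))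
  have hb : U ⊓ Subgroup.centralizer (Subgroup.zpowers a : Set G) = ⊥ :=
    (Subgroup.eq_bot_iff_forall _).2 fun u hu => hC.fam_fpf ha hH (hUH hu.1)
      (Subgroup.mem_centralizer_iff.1 hu.2 a (Subgroup.mem_zpowers a))
  rwa [hb, sup_bot_eq] at h

theorem Crit.fam_vl {a : G} (ha : Good p a) {L : Subgroup G} (hL : L ≠ ⊤) (haL : a ∈ L) :
    Fam p a (vl p a L) := by
  have hN : Subgroup.zpowers a ≤ Subgroup.normalizer (core p L : Set G) :=
    Subgroup.zpowers_le.2 (self_le_normalizer_core p L haL)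
  haveI := hC.proper L hL
  refine ⟨fun h => not_dvd_card_core (p := p) L
      (h.trans (Subgroup.card_dvd_of_le (CfsgLib.CoprimeAction.commutator_le_left hN))),
    le_trans le_sup_right (CfsgLib.CoprimeAction.sup_le_normalizer_commutator _ _), ?_⟩
  exact CfsgLib.CoprimeAction.commutator_commutator_eq hN (coprime_zpowers ha (not_dvd_card_core L))
    (Or.inl (CfsgLib.CoprimeAction.isSolvable_zpowers a))

theorem Crit.fam_le_vl {a : G} (ha : Good p a) {H L : Subgroup G} (hL : L ≠ ⊤) (haL : a ∈ L)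
    (hH : Fam p a H) (hHL : H ≤ L) : H ≤ vl p a L := by
  have hle : H ≤ core p L := by
    conv_lhs => rw [← hH.2.2]
    rw [Subgroup.commutator_le]
    intro h hh x hx
    by_cases hx1 : x = 1
    · rw [hx1, commutatorElement_one_right]; exact one_mem _
    · exact hC.commutatorElement_mem_core (ha.zpowers hx hx1) hL (Subgroup.zpowers_le.2 haL hx)
        hHL hH.1 (hH.2.1 hx) hh
  conv_lhs => rw [← hH.2.2]
  exact Subgroup.commutator_mono hle le_rfl

theorem Crit.exists_conj_eq {a b : G} (ha : Good p a) (hb : Good p b) {L : Subgroup G}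
    (hL : L ≠ ⊤) (haL : a ∈ L) (hbL : b ∈ L) :
    ∃ v ∈ vl p a L, ∃ w : G, Good p w ∧ Commute a w ∧ b = v * w * v⁻¹ := by
  obtain ⟨k, hk, hkc⟩ := hC.exists_conj_commute ha hb hL haL hbL
  obtain ⟨v, hv, c, hc, he⟩ := CfsgLib.CoprimeAction.commutator_sup_centralizer_aux
    (Subgroup.zpowers_le.2 (self_le_normalizer_core p L haL))
    (coprime_zpowers ha (not_dvd_card_core L))
    (Or.inl (CfsgLib.CoprimeAction.isSolvable_zpowers a)) hk
  have hac : Commute a c := Subgroup.mem_centralizer_iff.1 hc.2 a (Subgroup.mem_zpowers a)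
  refine ⟨v, hv, c * (k⁻¹ * b * k) * c⁻¹, ?_, ?_, ?_⟩
  · have := (hb.conj k⁻¹).conj c
    rwa [inv_inv] at this
  · exact (hac.mul_right hkc).mul_right hac.inv_right
  · subst he
    group

theorem Crit.exists_top {a : G} {H : Subgroup G} (hH : Fam p a H) (h1 : H ≠ ⊥) :
    ∃ V, Top p a V ∧ H ≤ V := by
  obtain ⟨V, hHV, hV⟩ := (Set.toFinite {K : Subgroup G | Fam p a K}).exists_le_maximal hH
  exact ⟨V, ⟨hV.1, fun h => h1 (le_bot_iff.1 (h ▸ hHV)),
    fun K hK hle => le_antisymm (hV.2 hK hle) hle⟩, hHV⟩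

theorem Crit.fam_ne_top {a : G} (ha : Good p a) {H : Subgroup G} (hH : Fam p a H) : H ≠ ⊤ :=
  hC.ne_top_of_not_dvd ha hH.1

theorem Crit.top_normalizer_ne_top {a : G} (ha : Good p a) {V : Subgroup G} (hV : Top p a V) :
    Subgroup.normalizer (V : Set G) ≠ ⊤ :=
  hC.normalizer_ne_top hV.2.1 (hC.fam_ne_top ha hV.1)

theorem Crit.top_eq_of_inf_ne_bot {a : G} (ha : Good p a) {V₁ V₂ : Subgroup G}
    (h₁ : Top p a V₁) (h₂ : Top p a V₂) (hi : V₁ ⊓ V₂ ≠ ⊥) : V₁ = V₂ := by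
  by_contra hne
  let S : Set (Subgroup G × Subgroup G) :=
    {q | Top p a q.1 ∧ Top p a q.2 ∧ q.1 ≠ q.2 ∧ q.1 ⊓ q.2 ≠ ⊥}
  obtain ⟨⟨X, Y⟩, ⟨hX, hY, hXY, hU⟩, hmax⟩ :=
    S.exists_max_image (fun q => Nat.card (q.1 ⊓ q.2 : Subgroup G)) (Set.toFinite S)
      ⟨(V₁, V₂), h₁, h₂, hne, hi⟩
  simp only at hX hY hXY hU hmax
  set U := X ⊓ Y with hUdef
  have haU : Subgroup.zpowers a ≤ Subgroup.normalizer (U : Set G) := fun x hx =>
    CfsgLib.CoprimeAction.mem_normalizer_of_conj_mem fun y hy =>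
      ⟨CfsgLib.CoprimeAction.conj_mem (hX.1.2.1 hx) hy.1,
        CfsgLib.CoprimeAction.conj_mem (hY.1.2.1 hx) hy.2⟩
  set L := Subgroup.normalizer (U : Set G) with hLdef
  have hUtop : U ≠ ⊤ := fun h => hC.fam_ne_top ha hX.1 (top_le_iff.1 (h ▸ inf_le_left))
  have hL : L ≠ ⊤ := hC.normalizer_ne_top hU hUtop
  have haL : a ∈ L := haU (Subgroup.mem_zpowers a)
  have grow : ∀ Z : Subgroup G, Top p a Z → U < Z → U < Z ⊓ L ∧ Z ⊓ L ≤ vl p a L := by
    intro Z hZ hlt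
    refine ⟨CfsgLib.Cores.lt_normalizer_inf_of_isNilpotent (hC.fam_nilpotent ha hZ.1) hlt, ?_⟩
    refine hC.fam_le_vl ha hL haL (hC.fam_of_le ha hZ.1 inf_le_left fun x hx => ?_) inf_le_right
    exact CfsgLib.CoprimeAction.mem_normalizer_of_conj_mem fun y hy =>
      ⟨CfsgLib.CoprimeAction.conj_mem (hZ.1.2.1 hx) hy.1,
        CfsgLib.CoprimeAction.conj_mem (Subgroup.le_normalizer (haU hx)) hy.2⟩
  have hXlt : U < X := lt_of_le_of_ne inf_le_left fun h =>
    hXY (hX.2.2 Y hY.1 (h ▸ (inf_le_right : U ≤ Y))).symm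
  have hYlt : U < Y := lt_of_le_of_ne inf_le_right fun h =>
    hXY (hY.2.2 X hX.1 (h ▸ (inf_le_left : U ≤ X)))
  obtain ⟨hX1, hX2⟩ := grow X hX hXlt
  obtain ⟨hY1, hY2⟩ := grow Y hY hYlt
  obtain ⟨W, hW, hWle⟩ := hC.exists_top (hC.fam_vl ha hL haL) fun h =>
    (ne_bot_of_gt hX1) (le_bot_iff.1 (h ▸ hX2))
  have key : ∀ Z : Subgroup G, Top p a Z → U < Z ⊓ L → Z ⊓ L ≤ vl p a L → Z = W := by
    intro Z hZ h1 h2
    by_contra hZW
    have h3 : U < Z ⊓ W := lt_of_lt_of_le h1 (le_inf inf_le_left (h2.trans hWle))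
    have h4 := hmax (Z, W) ⟨hZ, hW, hZW, ne_bot_of_gt h3⟩
    simp only at h4
    exact absurd h4 (not_le.2 (Set.Finite.card_lt_card (Set.toFinite _) (SetLike.coe_ssubset_coe.2 h3)))
  exact hXY ((key X hX hX1 hX2).trans (key Y hY hY1 hY2).symm)

theorem Crit.mem_of_conj_mem {a k : G} (ha : Good p a) {V L : Subgroup G} (hV : Fam p a V)
    (hk : k ∈ V) (haL : a ∈ L) (hbL : k * a * k⁻¹ ∈ L) : k ∈ L := by
  have haV := hV.2.1 (Subgroup.mem_zpowers a)
  have haN : a ∈ Subgroup.normalizer ((L ⊓ V : Subgroup G) : Set G) :=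
    CfsgLib.CoprimeAction.mem_normalizer_of_conj_mem fun x hx =>
      ⟨L.mul_mem (L.mul_mem haL hx.1) (L.inv_mem haL), CfsgLib.CoprimeAction.conj_mem haV hx.2⟩
  have hc : k * a * k⁻¹ * a⁻¹ ∈ L ⊓ V := by
    refine ⟨L.mul_mem hbL (L.inv_mem haL), ?_⟩
    rw [show k * a * k⁻¹ * a⁻¹ = k * (a * k⁻¹ * a⁻¹) by group]
    exact V.mul_mem hk (CfsgLib.CoprimeAction.conj_mem haV (V.inv_mem hk))
  obtain ⟨n, hn, he⟩ := exists_conj_of_congr ha
    (fun h => hV.1 (h.trans (Subgroup.card_dvd_of_le inf_le_right))) haN (ha.conj k).1 hc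
  have h1 : k⁻¹ * n = 1 := by
    refine hC.fam_fpf ha hV (V.mul_mem (V.inv_mem hk) hn.2) ?_
    have h2 := congrArg (fun t => k⁻¹ * t * n) he
    show a * (k⁻¹ * n) = k⁻¹ * n * a
    simpa [mul_assoc] using h2
  rw [inv_mul_eq_one] at h1
  exact h1 ▸ hn.1

theorem Crit.normalizer_le_normalizer {a : G} (ha : Good p a) {V : Subgroup G} (hV : Top p a V) :
    Subgroup.normalizer (Subgroup.zpowers a : Set G) ≤ Subgroup.normalizer (V : Set G) := by
  intro n hn
  obtain ⟨k, hk, hk1⟩ := V.bot_or_exists_ne_one.resolve_left hV.2.1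
  set L := Subgroup.closure ({a, k * n} : Set G) with hLdef
  have hL : L ≠ ⊤ := hC.pair _ _
  have haL : a ∈ L := Subgroup.subset_closure (Or.inl rfl)
  have hknL : k * n ∈ L := Subgroup.subset_closure (Or.inr rfl)
  have hz := zpowers_conj_eq hn
  have hbL : k * a * k⁻¹ ∈ L := by
    have h1 : (Subgroup.zpowers (n * a * n⁻¹)).map (MulAut.conj k).toMonoidHom ≤ L := by
      rw [map_zpowers_conj, Subgroup.zpowers_le,
        show k * (n * a * n⁻¹) * k⁻¹ = (k * n) * a * (k * n)⁻¹ by group]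
      exact L.mul_mem (L.mul_mem hknL haL) (L.inv_mem hknL)
    exact h1 ⟨a, hz.symm ▸ Subgroup.mem_zpowers a, rfl⟩
  have hkL : k ∈ L := hC.mem_of_conj_mem ha hV.1 hk haL hbL
  have hnL : n ∈ L := by
    have := L.mul_mem (L.inv_mem hkL) hknL
    rwa [inv_mul_cancel_left] at this
  have hW : (vl p a L).map (MulAut.conj n).toMonoidHom = vl p a L := by
    rw [vl, Subgroup.map_commutator, map_conj_eq_self (self_le_normalizer_core p L hnL),
      map_zpowers_conj, hz]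
  have hkW : k ∈ vl p a L := hC.fam_le_vl ha hL haL (H := V ⊓ L)
    (hC.fam_of_le ha hV.1 inf_le_left fun x hx =>
      CfsgLib.CoprimeAction.mem_normalizer_of_conj_mem fun y hy =>
        ⟨CfsgLib.CoprimeAction.conj_mem (hV.1.2.1 hx) hy.1,
          CfsgLib.CoprimeAction.conj_mem (Subgroup.le_normalizer (Subgroup.zpowers_le.2 haL hx)) hy.2⟩)
    inf_le_right ⟨hk, hkL⟩
  obtain ⟨V', hV', hle⟩ := hC.exists_top (hC.fam_vl ha hL haL)
    fun h => hk1 (Subgroup.mem_bot.1 (h ▸ hkW))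
  have hVV' : V = V' := hC.top_eq_of_inf_ne_bot ha hV hV'
    fun h => hk1 (Subgroup.mem_bot.1 (h ▸ (⟨hk, hle hkW⟩ : k ∈ V ⊓ V')))
  have hWV : vl p a L ≤ V := hVV' ▸ hle
  have hV'' : Top p a (V.map (MulAut.conj n).toMonoidHom) := (hV.conj n).congr hz
  have heq : V = V.map (MulAut.conj n).toMonoidHom := hC.top_eq_of_inf_ne_bot ha hV hV''
    fun h => hk1 (Subgroup.mem_bot.1 (h ▸ (⟨hk, (hW ▸ Subgroup.map_mono hWV :
      vl p a L ≤ V.map (MulAut.conj n).toMonoidHom) hkW⟩ : k ∈ V ⊓ V.map (MulAut.conj n).toMonoidHom)))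
  refine CfsgLib.CoprimeAction.mem_normalizer_of_conj_mem fun x hx => ?_
  exact heq.ge ⟨x, hx, rfl⟩

theorem Crit.centralizer_le_normalizer {a : G} (ha : Good p a) {V : Subgroup G} (hV : Top p a V)
    {c : G} (hc : Commute a c) : c ∈ Subgroup.normalizer (V : Set G) :=
  hC.normalizer_le_normalizer ha hV (mem_normalizer_zpowers hc)

theorem Crit.exists_top_pair {a : G} (ha : Good p a) :
    ∃ V₁ V₂, Top p a V₁ ∧ Top p a V₂ ∧ V₁ ≠ V₂ := by
  by_contra h
  push Not at h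
  have key : ∀ M : Subgroup G, M ≠ ⊤ → (∀ c, Commute a c → c ∈ M) →
      (∀ V, Top p a V → V ≤ M) → False := by
    intro M hM hCM hVM
    refine hM (hC.eq_top_of_conj_mem ha.ne_one fun g => ?_)
    set L := Subgroup.closure ({a, g * a * g⁻¹} : Set G) with hLdef
    have haL : a ∈ L := Subgroup.subset_closure (Or.inl rfl)
    have hbL : g * a * g⁻¹ ∈ L := Subgroup.subset_closure (Or.inr rfl)
    obtain ⟨v, hv, w, hw, hwc, he⟩ :=
      hC.exists_conj_eq ha (ha.conj g) (hC.pair _ _) haL hbL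
    have hvM : v ∈ M := by
      by_cases h0 : vl p a L = ⊥
      · rw [h0, Subgroup.mem_bot] at hv; exact hv ▸ one_mem _
      · obtain ⟨V, hV, hle⟩ := hC.exists_top (hC.fam_vl ha (hC.pair _ _) haL) h0
        exact hVM V hV (hle hv)
    rw [he]
    exact M.mul_mem (M.mul_mem hvM (hCM w hwc)) (M.inv_mem hvM)
  by_cases hex : ∃ V, Top p a V
  · obtain ⟨V, hV⟩ := hex
    exact key _ (hC.top_normalizer_ne_top ha hV) (fun c hc => hC.centralizer_le_normalizer ha hV hc)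
      fun W hW => (h W V hW hV).symm ▸ Subgroup.le_normalizer
  · exact key (Subgroup.centralizer ({a} : Set G)) (hC.centralizer_ne_top ha.ne_one)
      (fun c hc => Subgroup.mem_centralizer_singleton_iff.2 hc.symm.eq)
      fun W hW => absurd ⟨W, hW⟩ hex

theorem Crit.commute_of_mem_top {a n : G} (ha : Good p a) {V : Subgroup G} (hV : Top p a V) {k : G}
    (hk : k ∈ V) (hn : n ∈ Subgroup.normalizer (Subgroup.zpowers a : Set G))
    (hnb : n ∈ Subgroup.normalizer (Subgroup.zpowers (k * a * k⁻¹) : Set G)) : Commute n k := by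
  set k' := n * k * n⁻¹ with hk'
  have hk'V : k' ∈ V := CfsgLib.CoprimeAction.conj_mem (hC.normalizer_le_normalizer ha hV hn) hk
  set d := k⁻¹ * k' with hd
  have hdV : d ∈ V := V.mul_mem (V.inv_mem hk) hk'V
  have hmap : (Subgroup.zpowers a).map (MulAut.conj d).toMonoidHom = Subgroup.zpowers a := by
    have e1 : (Subgroup.zpowers a).map (MulAut.conj k').toMonoidHom
        = Subgroup.zpowers (k * a * k⁻¹) := by
      rw [hk', ← map_map_conj, ← map_map_conj, map_conj_eq_self (inv_mem hn), map_zpowers_conj k,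
        map_conj_eq_self hnb]
    rw [hd, ← map_map_conj, e1, map_zpowers_conj,
      show k⁻¹ * (k * a * k⁻¹) * k⁻¹⁻¹ = a by group]
  have hda : d * a * d⁻¹ * a⁻¹ ∈ Subgroup.zpowers a :=
    mul_mem (hmap.le ⟨a, Subgroup.mem_zpowers a, rfl⟩) (inv_mem (Subgroup.mem_zpowers a))
  have hdV' : d * a * d⁻¹ * a⁻¹ ∈ V := by
    rw [show d * a * d⁻¹ * a⁻¹ = d * (a * d⁻¹ * a⁻¹) by group]
    exact V.mul_mem hdV (CfsgLib.CoprimeAction.conj_mem (hV.1.2.1 (Subgroup.mem_zpowers a))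
      (V.inv_mem hdV))
  have h1 := eq_one_of_zpowers_of_mem ha hV.1.1 hda hdV'
  rw [mul_inv_eq_one, mul_inv_eq_iff_eq_mul] at h1
  have h2 : d = 1 := hC.fam_fpf ha hV.1 hdV h1.symm
  rw [hd, inv_mul_eq_one, hk', eq_mul_inv_iff_mul_eq] at h2
  exact h2.symm

/-- No nontrivial element normalizes `⟨a⟩` and a second point of one of its lines. -/
theorem Crit.inf_normalizer_eq_bot {a : G} (ha : Good p a) {V₁ : Subgroup G} (hV₁ : Top p a V₁)
    {k₁ : G} (hk₁ : k₁ ∈ V₁) (hk₁1 : k₁ ≠ 1) :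
    Subgroup.normalizer (Subgroup.zpowers a : Set G) ⊓
      Subgroup.normalizer (Subgroup.zpowers (k₁ * a * k₁⁻¹) : Set G) = ⊥ := by
  rw [Subgroup.eq_bot_iff_forall]
  rintro n ⟨hna, hnb⟩
  by_contra hn1
  obtain ⟨W₁, W₂, hW₁, hW₂, hW⟩ := hC.exists_top_pair ha
  obtain ⟨V₂, hV₂, hne⟩ : ∃ V₂, Top p a V₂ ∧ V₁ ≠ V₂ := by
    by_cases h : V₁ = W₁
    · exact ⟨W₂, hW₂, h ▸ hW⟩
    · exact ⟨W₁, hW₁, h⟩
  set b := k₁ * a * k₁⁻¹ with hb
  have hbG : Good p b := ha.conj k₁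
  have hV₁b : Top p b V₁ := by
    have := hV₁.conj k₁
    rwa [map_conj_eq_self (Subgroup.le_normalizer hk₁)] at this
  have hdisj : ∀ x, x ∈ V₁ → x ∈ V₂ → x = 1 := fun x h1 h2 => by
    by_contra hx
    exact hne (hC.top_eq_of_inf_ne_bot ha hV₁ hV₂
      fun h => hx (Subgroup.mem_bot.1 (h ▸ (⟨h1, h2⟩ : x ∈ V₁ ⊓ V₂))))
  -- no other line inside `N(V₁)`
  have step2 : ∀ (A B : Subgroup G), Top p a A → Top p a B →
      (∀ x, x ∈ A → x ∈ B → x = 1) → ∀ k ∈ B, k ≠ 1 →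
      k * a * k⁻¹ ∉ Subgroup.normalizer (A : Set G) := by
    intro A B hA hB hAB k hk hk1 hmem
    set L := Subgroup.normalizer (A : Set G)
    have haL : a ∈ L := hA.1.2.1 (Subgroup.mem_zpowers a)
    have hkL : k ∈ L := hC.mem_of_conj_mem ha hB.1 hk haL hmem
    have hL := hC.top_normalizer_ne_top ha hA
    have hAle : A ≤ vl p a L := hC.fam_le_vl ha hL haL hA.1 Subgroup.le_normalizer
    have hkW : k ∈ vl p a L := hC.fam_le_vl ha hL haL (H := B ⊓ L)
      (hC.fam_of_le ha hB.1 inf_le_left fun x hx =>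
        CfsgLib.CoprimeAction.mem_normalizer_of_conj_mem fun y hy =>
          ⟨CfsgLib.CoprimeAction.conj_mem (hB.1.2.1 hx) hy.1,
            CfsgLib.CoprimeAction.conj_mem (Subgroup.le_normalizer (hA.1.2.1 hx)) hy.2⟩)
      inf_le_right ⟨hk, hkL⟩
    have hA' := hA.2.2 _ (hC.fam_vl ha hL haL) hAle
    exact hk1 (hAB k (hA' ▸ hkW) hk)
  have hcent : ∀ k₂ ∈ V₂, Commute n k₂ := by
    intro k₂ hk₂
    by_cases h21 : k₂ = 1
    · subst h21; exact Commute.one_right n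
    set z := k₂ * a * k₂⁻¹ with hz
    have hzG : Good p z := ha.conj k₂
    have hV₂z : Top p z V₂ := by
      have := hV₂.conj k₂
      rwa [map_conj_eq_self (Subgroup.le_normalizer hk₂)] at this
    have hzN : z ∉ Subgroup.normalizer (V₁ : Set G) := step2 V₁ V₂ hV₁ hV₂ hdisj k₂ hk₂ h21
    set L := Subgroup.closure ({b, z} : Set G) with hLdef
    have hbL : b ∈ L := Subgroup.subset_closure (Or.inl rfl)
    have hzL : z ∈ L := Subgroup.subset_closure (Or.inr rfl)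
    obtain ⟨v, hv, w, hw, hwc, he⟩ := hC.exists_conj_eq hbG hzG (hC.pair _ _) hbL hzL
    have hw1 := hC.centralizer_le_normalizer hbG hV₁b hwc
    have h0 : vl p b L ≠ ⊥ := fun h0 => by
      rw [h0, Subgroup.mem_bot] at hv
      rw [hv, one_mul, inv_one, mul_one] at he
      exact hzN (he ▸ hw1)
    obtain ⟨V₃, hV₃, hle⟩ := hC.exists_top (hC.fam_vl hbG (hC.pair _ _) hbL) h0
    set L₃ := Subgroup.normalizer (V₃ : Set G) with hL₃
    have hv3 : v ∈ L₃ := Subgroup.le_normalizer (hle hv)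
    have hzL₃ : z ∈ L₃ := he ▸
      L₃.mul_mem (L₃.mul_mem hv3 (hC.centralizer_le_normalizer hbG hV₃ hwc)) (L₃.inv_mem hv3)
    have hbL₃ : b ∈ L₃ := hC.centralizer_le_normalizer hbG hV₃ (Commute.refl b)
    have hnL₃ : n ∈ L₃ := hC.normalizer_le_normalizer hbG hV₃ hnb
    have hL₃top := hC.top_normalizer_ne_top hbG hV₃
    set e := n * k₂ * n⁻¹ * k₂⁻¹ with he'
    have heV : e ∈ V₂ := V₂.mul_mem
      (CfsgLib.CoprimeAction.conj_mem (hC.normalizer_le_normalizer ha hV₂ hna) hk₂) (V₂.inv_mem hk₂)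
    by_contra hcom
    have he1 : e ≠ 1 := fun h => hcom (by
      rw [he', mul_inv_eq_one, mul_inv_eq_iff_eq_mul] at h
      exact h)
    have hzn : Subgroup.zpowers a ≤ (L₃.comap (MulAut.conj (n * k₂)).toMonoidHom) := by
      rw [Subgroup.zpowers_le]
      show n * k₂ * a * (n * k₂)⁻¹ ∈ L₃
      rw [show n * k₂ * a * (n * k₂)⁻¹ = n * z * n⁻¹ by rw [hz]; group]
      exact L₃.mul_mem (L₃.mul_mem hnL₃ hzL₃) (L₃.inv_mem hnL₃)
    have hezL₃ : e * z * e⁻¹ ∈ L₃ := by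
      have h1 : n⁻¹ * a * n ∈ Subgroup.zpowers a :=
        CfsgLib.CoprimeAction.conj_mem' hna (Subgroup.mem_zpowers a)
      have h2 : n * k₂ * (n⁻¹ * a * n) * (n * k₂)⁻¹ ∈ L₃ := hzn h1
      rwa [show n * k₂ * (n⁻¹ * a * n) * (n * k₂)⁻¹ = e * z * e⁻¹ by rw [he', hz]; group] at h2
    have heL₃ : e ∈ L₃ := hC.mem_of_conj_mem hzG hV₂z.1 heV hzL₃ hezL₃
    have heW : e ∈ vl p z L₃ := hC.fam_le_vl hzG hL₃top hzL₃ (H := V₂ ⊓ L₃)
      (hC.fam_of_le hzG hV₂z.1 inf_le_left fun x hx =>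
        CfsgLib.CoprimeAction.mem_normalizer_of_conj_mem fun y hy =>
          ⟨CfsgLib.CoprimeAction.conj_mem (hV₂z.1.2.1 hx) hy.1,
            CfsgLib.CoprimeAction.conj_mem (Subgroup.le_normalizer (Subgroup.zpowers_le.2 hzL₃ hx)) hy.2⟩)
      inf_le_right ⟨heV, heL₃⟩
    obtain ⟨V₄, hV₄, hle4⟩ := hC.exists_top (hC.fam_vl hzG hL₃top hzL₃)
      fun h => he1 (Subgroup.mem_bot.1 (h ▸ heW))
    have h24 : V₂ = V₄ := hC.top_eq_of_inf_ne_bot hzG hV₂z hV₄
      fun h => he1 (Subgroup.mem_bot.1 (h ▸ (⟨heV, hle4 heW⟩ : e ∈ V₂ ⊓ V₄)))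
    obtain ⟨v', hv', w', hw', hwc', he2⟩ := hC.exists_conj_eq hzG hbG hL₃top hzL₃ hbL₃
    have hbN : b ∈ Subgroup.normalizer (V₂ : Set G) := by
      rw [he2]
      have hvN : v' ∈ Subgroup.normalizer (V₂ : Set G) :=
        Subgroup.le_normalizer (h24 ▸ hle4 hv')
      exact mul_mem (mul_mem hvN (hC.centralizer_le_normalizer hzG hV₂z hwc')) (inv_mem hvN)
    exact step2 V₂ V₁ hV₂ hV₁ (fun x h1 h2 => hdisj x h2 h1) k₁ hk₁ hk₁1 hbN
  have hnk₁ : Commute n k₁ := hC.commute_of_mem_top ha hV₁ hk₁ hna hnb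
  obtain ⟨j, hj⟩ : n * a * n⁻¹ ∈ Subgroup.zpowers a :=
    CfsgLib.CoprimeAction.conj_mem hna (Subgroup.mem_zpowers a)
  obtain ⟨k₂, hk₂, hk₂1⟩ := V₂.bot_or_exists_ne_one.resolve_left hV₂.2.1
  have hna' : Commute n a := by
    have hkey : a ^ (j - 1) * k₂ * (a ^ (j - 1))⁻¹ = k₂ := by
      have h1 : n * (a * k₂ * a⁻¹) * n⁻¹ = a * k₂ * a⁻¹ :=
        mul_inv_eq_iff_eq_mul.2
          (hcent _ (CfsgLib.CoprimeAction.conj_mem (hV₂.1.2.1 (Subgroup.mem_zpowers a)) hk₂)).eq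
      have h2 : n * (a * k₂ * a⁻¹) * n⁻¹
          = (n * a * n⁻¹) * (n * k₂ * n⁻¹) * (n * a * n⁻¹)⁻¹ := by group
      rw [h2, mul_inv_eq_iff_eq_mul.2 (hcent k₂ hk₂).eq, ← hj] at h1
      calc a ^ (j - 1) * k₂ * (a ^ (j - 1))⁻¹ = a⁻¹ * (a ^ j * k₂ * (a ^ j)⁻¹) * a := by group
        _ = k₂ := by
          show a⁻¹ * (a ^ j * k₂ * (a ^ j)⁻¹) * a = k₂
          rw [show a ^ j * k₂ * (a ^ j)⁻¹ = a * k₂ * a⁻¹ from h1]; group
    by_cases h1 : a ^ (j - 1) = 1
    · rw [zpow_sub, zpow_one, mul_inv_eq_one] at h1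
      have hj' : a ^ j = n * a * n⁻¹ := hj
      rw [h1, eq_mul_inv_iff_mul_eq] at hj'
      exact hj'.symm
    · exfalso
      have hmem : a ^ (j - 1) ∈ Subgroup.zpowers a := ⟨j - 1, rfl⟩
      have hzp : Subgroup.zpowers (a ^ (j - 1)) = Subgroup.zpowers a :=
        Subgroup.eq_of_le_of_card_ge (Subgroup.zpowers_le.2 hmem) (by
          rw [Nat.card_zpowers, Nat.card_zpowers, (ha.zpowers hmem h1).1, ha.1])
      exact hk₂1 (hC.fam_fpf (ha.zpowers hmem h1) (hV₂.1.congr hzp.symm) hk₂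
        (mul_inv_eq_iff_eq_mul.1 hkey))
  set L := Subgroup.centralizer ({n} : Set G) with hLdef
  have hL : L ≠ ⊤ := hC.centralizer_ne_top hn1
  have hmemL : ∀ x, Commute n x → x ∈ L := fun x hx =>
    Subgroup.mem_centralizer_singleton_iff.2 hx.symm.eq
  have haL : a ∈ L := hmemL a hna'
  have hk₂W : k₂ ∈ vl p a L :=
    hC.fam_le_vl ha hL haL hV₂.1 (fun x hx => hmemL x (hcent x hx)) hk₂
  have hk₁W : k₁ ∈ vl p a L := hC.fam_le_vl ha hL haL (H := V₁ ⊓ L)
    (hC.fam_of_le ha hV₁.1 inf_le_left fun x hx =>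
      CfsgLib.CoprimeAction.mem_normalizer_of_conj_mem fun y hy =>
        ⟨CfsgLib.CoprimeAction.conj_mem (hV₁.1.2.1 hx) hy.1,
          CfsgLib.CoprimeAction.conj_mem (Subgroup.le_normalizer (Subgroup.zpowers_le.2 haL hx)) hy.2⟩)
    inf_le_right ⟨hk₁, hmemL k₁ hnk₁⟩
  have hle : V₂ ≤ vl p a L := hC.fam_le_vl ha hL haL hV₂.1 fun x hx => hmemL x (hcent x hx)
  exact hk₁1 (hdisj k₁ hk₁ (hV₂.2.2 _ (hC.fam_vl ha hL haL) hle ▸ hk₁W))

/-- Good elements commuting with `a` generate `⟨a⟩`. -/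
theorem Crit.mem_zpowers_of_commute {a b : G} (ha : Good p a) (hb : Good p b) (h : Commute a b) :
    b ∈ Subgroup.zpowers a := by
  obtain ⟨V, -, hV, -, -⟩ := hC.exists_top_pair ha
  set A := Subgroup.closure ({a, b} : Set G) with hA
  haveI : IsMulCommutative A := Subgroup.isMulCommutative_closure (by
    rintro x (rfl | rfl) y (rfl | rfl)
    · rfl
    · exact h.eq
    · exact h.eq.symm
    · rfl)
  have hAC : ∀ x ∈ A, Commute a x := by
    intro x hx
    have hle : A ≤ Subgroup.centralizer ({a} : Set G) := (Subgroup.closure_le _).2 (by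
      rintro _ (rfl | rfl) <;> rw [SetLike.mem_coe, Subgroup.mem_centralizer_singleton_iff]
      exact h.symm.eq)
    exact (Subgroup.mem_centralizer_singleton_iff.1 (hle hx)).symm
  have hfpf : ∀ x ∈ A, x ≠ 1 → V ⊓ Subgroup.centralizer ({x} : Set G) = ⊥ := by
    intro x hx hx1
    rw [Subgroup.eq_bot_iff_forall]
    rintro k ⟨hk, hkx⟩
    by_contra hk1
    refine hx1 ((Subgroup.eq_bot_iff_forall _).1 (hC.inf_normalizer_eq_bot ha hV hk hk1) x ⟨?_, ?_⟩)
    · exact mem_normalizer_zpowers (hAC x hx)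
    · refine mem_normalizer_zpowers ?_
      have hxk : Commute k x := Subgroup.mem_centralizer_singleton_iff.1 hkx
      exact (hxk.mul_left (hAC x hx)).mul_left hxk.inv_left
  haveI hcyc : IsCyclic A := CfsgLib.Cores.isCyclic_of_fpf hV.2.1
    (fun x hx => hC.centralizer_le_normalizer ha hV (hAC x hx)) hfpf
  have := CfsgLib.BGAppendix.eq_of_card_eq_of_le_cyclic A (Subgroup.zpowers a) (Subgroup.zpowers b)
    hcyc (Subgroup.zpowers_le.2 (Subgroup.subset_closure (Or.inl rfl)))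
    (Subgroup.zpowers_le.2 (Subgroup.subset_closure (Or.inr rfl)))
    (by rw [Nat.card_zpowers, Nat.card_zpowers, ha.1, hb.1])
  exact this.symm ▸ Subgroup.mem_zpowers b

theorem Crit.false_of_dvd (hdvd : p ∣ Nat.card G) : False := by
  obtain ⟨P⟩ : Nonempty (Sylow p G) := inferInstance
  haveI : Nontrivial (P : Subgroup G) :=
    (Subgroup.nontrivial_iff_ne_bot _).2 (P.ne_bot_of_dvd_card hdvd)
  haveI := P.2.center_nontrivial
  have hd : p ∣ Nat.card (Subgroup.center (P : Subgroup G)) := by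
    obtain ⟨n, hn, hcard⟩ :=
      (P.2.to_subgroup (Subgroup.center (P : Subgroup G))).nontrivial_iff_card.1 inferInstance
    exact hcard ▸ dvd_pow_self p hn.ne'
  obtain ⟨z, hz⟩ := exists_prime_orderOf_dvd_card' (G := Subgroup.center (P : Subgroup G)) p hd
  set a : G := ((z : (P : Subgroup G)) : G) with hadef
  have ha : Good p a := by
    refine ⟨by rw [hadef, Subgroup.orderOf_coe, Subgroup.orderOf_coe, hz], P, (z : (P : Subgroup G)).2,
      fun y hy => Subgroup.mem_centralizer_singleton_iff.2 ?_⟩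
    exact congrArg Subtype.val (Subgroup.mem_center_iff.1 z.2 ⟨y, hy⟩)
  set H := Subgroup.normalizer (Subgroup.zpowers a : Set G) with hH
  have hHbot : H ≠ ⊥ := fun h => ha.ne_one (Subgroup.mem_bot.1 (h ▸ mem_normalizer_zpowers (Commute.refl a)))
  have hztop : Subgroup.zpowers a ≠ ⊤ := fun h => hC.notSolv (Group.isSolvable_of_comm fun x y => by
    obtain ⟨i, rfl⟩ := (h ▸ Subgroup.mem_top x : x ∈ Subgroup.zpowers a)
    obtain ⟨j, rfl⟩ := (h ▸ Subgroup.mem_top y : y ∈ Subgroup.zpowers a)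
    exact zpow_mul_comm a i j)
  have hHtop : H ≠ ⊤ := hC.normalizer_ne_top
    (fun h => ha.ne_one (Subgroup.mem_bot.1 (h ▸ Subgroup.mem_zpowers a))) hztop
  have hFrob : IsFrobeniusComplement H := by
    refine ⟨hHbot, hHtop, fun g hg => ?_⟩
    rw [Subgroup.eq_bot_iff_forall]
    rintro x ⟨hx, hxg⟩
    set b := g * a * g⁻¹ with hb
    have hxb : x ∈ Subgroup.normalizer (Subgroup.zpowers b : Set G) := by
      rw [hb, ← map_zpowers_conj]
      exact Subgroup.le_normalizer_map _ ⟨g⁻¹ * x * g, CfsgLib.CoprimeAction.mem_conj_iff.1 hxg,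
        by simp [mul_assoc]⟩
    have hnb : ∀ c, Good p c → Commute a c → c ∈ Subgroup.zpowers a := fun c hc h =>
      hC.mem_zpowers_of_commute ha hc h
    set L := Subgroup.closure ({a, b} : Set G) with hL
    have haL : a ∈ L := Subgroup.subset_closure (Or.inl rfl)
    have hbL : b ∈ L := Subgroup.subset_closure (Or.inr rfl)
    obtain ⟨v, hv, w, hw, hwc, he⟩ := hC.exists_conj_eq ha (ha.conj g) (hC.pair _ _) haL hbL
    have hwz : Subgroup.zpowers w = Subgroup.zpowers a :=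
      Subgroup.eq_of_le_of_card_ge (Subgroup.zpowers_le.2 (hnb w hw hwc))
        (by rw [Nat.card_zpowers, Nat.card_zpowers, hw.1, ha.1])
    have hbz : Subgroup.zpowers b = Subgroup.zpowers (v * a * v⁻¹) := by
      rw [hb, he, ← map_zpowers_conj, hwz, map_zpowers_conj]
    by_cases hv1 : v = 1
    · exfalso
      refine hg ?_
      rw [hv1] at hbz
      simp only [one_mul, inv_one, mul_one] at hbz
      refine CfsgLib.CoprimeAction.mem_normalizer_of_conj_mem fun y hy => ?_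
      rw [← hbz, hb, ← map_zpowers_conj]
      exact ⟨y, hy, rfl⟩
    · obtain ⟨V, hV, hle⟩ := hC.exists_top (hC.fam_vl ha (hC.pair _ _) haL)
        fun h => hv1 (Subgroup.mem_bot.1 (h ▸ hv))
      exact (Subgroup.eq_bot_iff_forall _).1 (hC.inf_normalizer_eq_bot ha hV (hle hv) hv1) x
        ⟨hx, hbz ▸ hxb⟩
  obtain ⟨N, -, hN, hcompl⟩ := CfsgLib.Frobenius.exists_kernel hFrob
  rcases hC.simple N hN with h | h
  · subst h
    exact hHtop (Subgroup.isComplement'_bot_left.1 hcompl)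
  · subst h
    exact hHbot (Subgroup.isComplement'_top_left.1 hcompl)

end CfsgLib.MetacyclicP.TwoGen
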