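import Cfsg.Agent.Lib.MetacyclicP.TwoGen.ClosureFPF
import Cfsg.Agent.Lib.BGAppendix.SolvableCores
import Cfsg.Agent.Lib.PGroups.SLFreeCriteria
import Cfsg.Agent.Lib.PGroups.PStableSL
import Cfsg.Agent.Lib.ThompsonJ.Basic
import Cfsg.Agent.S0118

/-!
Minimal counterexamples to "every two elements generate a soluble subgroup implies soluble":
central elements of order `p ≥ 5` of Sylow subgroups, their `p'`-cores and commutator subgroups.
-/

set_option autoImplicit false
set_option linter.all false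
set_option maxHeartbeats 800000

namespace CfsgLib.MetacyclicP.TwoGen

open scoped Pointwise commutatorElement
open Cfsg CfsgLib.FixedPointFree

variable {G : Type*} [Group G]

/-- A minimal counterexample. -/
structure Crit (G : Type*) [Group G] (p : ℕ) : Prop where
  five_le : 5 ≤ p
  proper : ∀ H : Subgroup G, H ≠ ⊤ → Group.IsSolvable H
  pair : ∀ a b : G, Subgroup.closure ({a, b} : Set G) ≠ ⊤
  simple : ∀ N : Subgroup G, N.Normal → N = ⊥ ∨ N = ⊤
  notSolv : ¬ Group.IsSolvable G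

/-- An element of order `p` central in a Sylow `p`-subgroup. -/
def Good (p : ℕ) (a : G) : Prop :=
  orderOf a = p ∧ ∃ P : Sylow p G, a ∈ (P : Subgroup G) ∧
    (P : Subgroup G) ≤ Subgroup.centralizer ({a} : Set G)

/-- An element of order prime to `p`. -/
def PPrime (p : ℕ) (u : G) : Prop := ∃ m : ℕ, ¬ p ∣ m ∧ u ^ m = 1

/-- The `p'`-core of a subgroup, as a subgroup of the ambient group. -/
def core (p : ℕ) (L : Subgroup G) : Subgroup G := (pPrimeCore p L).map L.subtype

/-- `O_{p',p}` of a subgroup, as a subgroup of the ambient group. -/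
def ext (p : ℕ) (L : Subgroup G) : Subgroup G := (pPrimePCore p L).map L.subtype

theorem core_le (p : ℕ) (L : Subgroup G) : core p L ≤ L := Subgroup.map_subtype_le _

theorem ext_le (p : ℕ) (L : Subgroup G) : ext p L ≤ L := Subgroup.map_subtype_le _

theorem le_normalizer_core (p : ℕ) (L : Subgroup G) :
    Subgroup.normalizer (L : Set G) ≤ Subgroup.normalizer (core p L : Set G) := by
  haveI := CfsgLib.Cores.pPrimeCore_characteristic p L
  exact CfsgLib.Cores.normalizer_le_normalizer_map_subtype L _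

theorem self_le_normalizer_core (p : ℕ) (L : Subgroup G) :
    L ≤ Subgroup.normalizer (core p L : Set G) :=
  Subgroup.le_normalizer.trans (le_normalizer_core p L)

theorem mem_of_pow_mem' {X : Subgroup G} {b : G} {m n : ℕ} (hmn : Nat.Coprime m n)
    (hm : b ^ m ∈ X) (hn : b ^ n ∈ X) : b ∈ X := by
  have h : b ^ ((Nat.gcd m n : ℕ) : ℤ) ∈ X := by
    rw [Nat.gcd_eq_gcd_ab, zpow_add, zpow_mul, zpow_mul, zpow_natCast, zpow_natCast]
    exact X.mul_mem (X.zpow_mem hm _) (X.zpow_mem hn _)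
  rwa [hmn.gcd_eq_one, Nat.cast_one, zpow_one] at h

variable [Finite G] {p : ℕ} [hp : Fact p.Prime]

theorem eq_one_of_pprime {u : G} (h : PPrime p u) {k : ℕ} (hk : u ^ p ^ k = 1) : u = 1 := by
  obtain ⟨m, hm, hum⟩ := h
  refine Subgroup.mem_bot.1 (mem_of_pow_mem' (X := ⊥) (m := m) (n := p ^ k) ?_
    (Subgroup.mem_bot.2 hum) (Subgroup.mem_bot.2 hk))
  exact ((hp.out.coprime_iff_not_dvd.2 hm).pow_left k).symm

theorem pprime_of_mem {H : Subgroup G} (hH : ¬ p ∣ Nat.card H) {u : G} (hu : u ∈ H) :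
    PPrime p u :=
  ⟨Nat.card H, hH, congrArg Subtype.val (pow_card_eq_one' (x := (⟨u, hu⟩ : H)))⟩

theorem not_dvd_card_core (L : Subgroup G) : ¬ p ∣ Nat.card (core p L) := by
  rw [core, Subgroup.card_map_of_injective L.subtype_injective]
  exact CfsgLib.Cores.not_dvd_card_pPrimeCore

theorem le_core {H L : Subgroup G} (hHL : H ≤ L) (hL : L ≤ Subgroup.normalizer (H : Set G))
    (hH : ¬ p ∣ Nat.card H) : H ≤ core p L := by
  haveI : (H.subgroupOf L).Normal := Subgroup.normal_subgroupOf_of_le_normalizer hL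
  have h := CfsgLib.Cores.le_pPrimeCore_of_not_dvd hp.out (N := H.subgroupOf L) (by
    rw [Nat.card_congr (Subgroup.subgroupOfEquivOfLe hHL).toEquiv]; exact hH)
  intro x hx
  exact ⟨⟨x, hHL hx⟩, h hx, rfl⟩

theorem mem_core_iff {L : Subgroup G} {x : G} (hx : x ∈ L) :
    x ∈ core p L ↔ QuotientGroup.mk' (pPrimeCore p L) ⟨x, hx⟩ = 1 := by
  constructor
  · rintro ⟨y, hy, he⟩
    obtain rfl : y = ⟨x, hx⟩ := Subtype.ext he
    exact (QuotientGroup.eq_one_iff _).2 hy
  · intro h
    exact ⟨⟨x, hx⟩, (QuotientGroup.eq_one_iff _).1 h, rfl⟩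

theorem mem_ext_iff {L : Subgroup G} {x : G} (hx : x ∈ L) :
    x ∈ ext p L ↔
      QuotientGroup.mk' (pPrimeCore p L) ⟨x, hx⟩ ∈ pCore p (L ⧸ pPrimeCore p L) := by
  constructor
  · rintro ⟨y, hy, he⟩
    obtain rfl : y = ⟨x, hx⟩ := Subtype.ext he
    exact hy
  · intro h
    exact ⟨⟨x, hx⟩, h, rfl⟩

theorem mem_core_of_mem_ext {L : Subgroup G} {u : G} (hu : u ∈ ext p L) (hu' : PPrime p u) :
    u ∈ core p L := by
  have huL := ext_le p L hu
  rw [mem_ext_iff huL] at hu
  rw [mem_core_iff huL]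
  obtain ⟨m, hm, hum⟩ := hu'
  obtain ⟨k, hk⟩ := CfsgLib.Cores.isPGroup_pCore p _ ⟨_, hu⟩
  refine eq_one_of_pprime ⟨m, hm, ?_⟩ (congrArg Subtype.val hk)
  rw [← map_pow, show (⟨u, huL⟩ : L) ^ m = 1 from Subtype.ext (by simpa using hum), map_one]

omit [Finite G] in
theorem Good.ne_one {a : G} (h : Good p a) : a ≠ 1 := fun h1 => by
  have := h.1
  rw [h1, orderOf_one] at this
  exact hp.out.one_lt.ne this

omit [Finite G] in
theorem Good.pow_eq_one {a : G} (h : Good p a) : a ^ p = 1 := h.1 ▸ pow_orderOf_eq_one a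

omit [Finite G] hp in
theorem Good.conj {a : G} (h : Good p a) (g : G) : Good p (g * a * g⁻¹) := by
  obtain ⟨ho, P, haP, hPa⟩ := h
  refine ⟨by rw [← ho]; exact (MulAut.conj g).orderOf_eq a, g • P, ?_, ?_⟩
  · rw [Sylow.coe_subgroup_smul]
    exact CfsgLib.CoprimeAction.mem_conj_iff.2 (by simpa [mul_assoc] using haP)
  · intro y hy
    rw [Sylow.coe_subgroup_smul] at hy
    have hy' := Subgroup.mem_centralizer_singleton_iff.1 (hPa (CfsgLib.CoprimeAction.mem_conj_iff.1 hy))
    refine Subgroup.mem_centralizer_singleton_iff.2 ?_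
    have h2 := congrArg (fun t => g * t * g⁻¹) hy'
    simpa [mul_assoc] using h2

theorem Good.zpowers {a b : G} (h : Good p a) (hb : b ∈ Subgroup.zpowers a) (hb1 : b ≠ 1) :
    Good p b := by
  obtain ⟨ho, P, haP, hPa⟩ := h
  have hbo : orderOf b = p := by
    have hd : orderOf b ∣ p := ho ▸ orderOf_dvd_of_mem_zpowers hb
    rcases (Nat.dvd_prime hp.out).1 hd with h1 | h1
    · exact absurd (orderOf_eq_one_iff.1 h1) hb1
    · exact h1
  refine ⟨hbo, P, (Subgroup.zpowers_le.2 haP) hb, fun y hy => ?_⟩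
  have hle : Subgroup.zpowers a ≤ Subgroup.centralizer ({y} : Set G) := by
    rw [Subgroup.zpowers_le, Subgroup.mem_centralizer_singleton_iff]
    exact (Subgroup.mem_centralizer_singleton_iff.1 (hPa hy)).symm
  exact Subgroup.mem_centralizer_singleton_iff.2
    (Subgroup.mem_centralizer_singleton_iff.1 (hle hb)).symm

theorem isPGroup_zpowers {a : G} (h : Good p a) : IsPGroup p (Subgroup.zpowers a) :=
  IsPGroup.of_card (n := 1) (by rw [Nat.card_zpowers, h.1, pow_one])

theorem coprime_zpowers {a : G} (h : Good p a) {H : Subgroup G} (hH : ¬ p ∣ Nat.card H) :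
    (Nat.card (Subgroup.zpowers a)).Coprime (Nat.card H) := by
  rw [Nat.card_zpowers, h.1]
  exact hp.out.coprime_iff_not_dvd.2 hH

theorem eq_one_of_zpowers_of_mem {a x : G} (h : Good p a) {H : Subgroup G}
    (hH : ¬ p ∣ Nat.card H) (hxa : x ∈ Subgroup.zpowers a) (hx : x ∈ H) : x = 1 := by
  obtain ⟨i, rfl⟩ := hxa
  refine eq_one_of_pprime (pprime_of_mem hH hx) (k := 1) ?_
  rw [← zpow_natCast, ← zpow_mul, mul_comm, zpow_mul, pow_one, zpow_natCast, h.pow_eq_one,
    one_zpow]

/-- An element of order `p` congruent to `a` modulo a `p'`-subgroup normalized by `a` is a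
conjugate of `a` by that subgroup. -/
theorem exists_conj_of_congr {a h : G} (ha : Good p a) {N : Subgroup G}
    (hN : ¬ p ∣ Nat.card N) (haN : a ∈ Subgroup.normalizer (N : Set G))
    (ho : orderOf h = p) (hc : h * a⁻¹ ∈ N) : ∃ n ∈ N, h = n * a * n⁻¹ := by
  obtain ⟨n, hn, hle⟩ := CfsgLib.CoprimeAction.exists_le_conj_of_coprime (N := N)
    (H := Subgroup.zpowers a) (B := Subgroup.zpowers h) (Subgroup.zpowers_le.2 haN) (by
      rw [Subgroup.zpowers_le]
      have := Subgroup.mul_mem_sup hc (Subgroup.mem_zpowers a)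
      rwa [inv_mul_cancel_right] at this)
    (by rw [Nat.card_zpowers, ho]; exact hp.out.coprime_iff_not_dvd.2 hN)
    (Or.inl (CfsgLib.CoprimeAction.isSolvable_zpowers h))
  refine ⟨n, hn, ?_⟩
  have hmem := CfsgLib.CoprimeAction.mem_conj_iff.1 (hle (Subgroup.mem_zpowers h))
  have hN2 : n⁻¹ * h * n * a⁻¹ ∈ N := by
    rw [show n⁻¹ * h * n * a⁻¹ = n⁻¹ * (h * a⁻¹) * (a * n * a⁻¹) by group]
    exact N.mul_mem (N.mul_mem (N.inv_mem hn) hc) (CfsgLib.CoprimeAction.conj_mem haN hn)
  have h1 := eq_one_of_zpowers_of_mem ha hN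
    (Subgroup.mul_mem _ hmem (Subgroup.inv_mem _ (Subgroup.mem_zpowers a))) hN2
  rw [mul_inv_eq_one] at h1
  rw [← h1]
  group

variable (hC : Crit G p)

include hC

omit [Finite G] in
theorem Crit.ne_two : p ≠ 2 := fun h => by have := hC.five_le; omega

omit [Finite G] hp in
theorem Crit.center_eq_bot : Subgroup.center G = ⊥ := by
  rcases hC.simple (Subgroup.center G) inferInstance with h | h
  · exact h
  · exact absurd (Group.isSolvable_of_comm fun x y =>
      (Subgroup.mem_center_iff.1 (h ▸ Subgroup.mem_top y : y ∈ Subgroup.center G) x)) hC.notSolv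

omit [Finite G] hp in
theorem Crit.centralizer_ne_top {a : G} (ha : a ≠ 1) :
    Subgroup.centralizer ({a} : Set G) ≠ ⊤ := fun h => ha (by
  have : a ∈ Subgroup.center G := Subgroup.mem_center_iff.2 fun g =>
    Subgroup.mem_centralizer_singleton_iff.1 (h ▸ Subgroup.mem_top g)
  rwa [hC.center_eq_bot, Subgroup.mem_bot] at this)

omit hp in
theorem Crit.normalizer_ne_top {H : Subgroup G} (h1 : H ≠ ⊥) (h2 : H ≠ ⊤) :
    Subgroup.normalizer (H : Set G) ≠ ⊤ := fun h => by
  rcases hC.simple H (Subgroup.normalizer_eq_top_iff.1 h) with h' | h'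
  · exact h1 h'
  · exact h2 h'

omit [Finite G] hp in
theorem Crit.eq_top_of_conj_mem {H : Subgroup G} {a : G} (ha : a ≠ 1)
    (h : ∀ g : G, g * a * g⁻¹ ∈ H) : H = ⊤ := by
  rcases hC.simple (Subgroup.normalClosure {a}) inferInstance with h' | h'
  · exact absurd (Subgroup.mem_bot.1 (h' ▸ Subgroup.subset_normalClosure rfl : a ∈ (⊥ : Subgroup G))) ha
  · rw [eq_top_iff, ← h']
    refine (Subgroup.closure_le _).2 ?_
    intro x hx
    obtain ⟨b, hb, hbx⟩ := Group.mem_conjugatesOfSet_iff.1 hx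
    rw [Set.mem_singleton_iff] at hb
    subst hb
    obtain ⟨g, rfl⟩ := isConj_iff.1 hbx
    exact h g

theorem Crit.ne_top_of_not_dvd {H : Subgroup G} {a : G} (ha : Good p a)
    (hH : ¬ p ∣ Nat.card H) : H ≠ ⊤ := fun h => hH (by
  rw [h, Subgroup.card_top]; exact ha.1 ▸ orderOf_dvd_natCard a)

theorem Crit.slFree : PGroups.SLFree p G := by
  intro K f hf
  haveI := hC
  by_cases hK : K = ⊤
  · subst hK
    haveI : (f.ker.map (⊤ : Subgroup G).subtype).Normal :=
      Subgroup.Normal.map inferInstance _ fun g => ⟨⟨g, trivial⟩, rfl⟩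
    rcases hC.simple (f.ker.map (⊤ : Subgroup G).subtype) inferInstance with h | h
    · have hinj : Function.Injective f :=
        (MonoidHom.ker_eq_bot_iff f).1
          ((Subgroup.map_eq_bot_iff_of_injective _ (⊤ : Subgroup G).subtype_injective).1 h)
      obtain ⟨z, hz⟩ := hf (-1)
      have hz1 : (z : G) ∈ Subgroup.center G := Subgroup.mem_center_iff.2 fun g => by
        have : f (⟨g, trivial⟩ * z) = f (z * ⟨g, trivial⟩) := by
          rw [map_mul, map_mul, hz]
          apply Subtype.ext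
          simp
        exact congrArg Subtype.val (hinj this)
      rw [hC.center_eq_bot, Subgroup.mem_bot, OneMemClass.coe_eq_one] at hz1
      rw [hz1, map_one] at hz
      have h00 := congrArg (fun M : Matrix.SpecialLinearGroup (Fin 2) (ZMod p) => M.1 0 0) hz
      simp at h00
      haveI : Fact (2 < p) := ⟨by have := hC.five_le; omega⟩
      exact ZMod.neg_one_ne_one h00.symm
    · obtain ⟨z, hz⟩ := hf ⟨!![1, 1; 0, 1], by simp [Matrix.det_fin_two]⟩
      have hzk : z ∈ f.ker := by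
        have := h.ge (Subgroup.mem_top (z : G))
        obtain ⟨y, hy, he⟩ := this
        obtain rfl : y = z := Subtype.ext he
        exact hy
      rw [MonoidHom.mem_ker, hz] at hzk
      have h01 := congrArg (fun M : Matrix.SpecialLinearGroup (Fin 2) (ZMod p) => M.1 0 1) hzk
      simp at h01
  · haveI := hC.proper K hK
    exact PGroups.SLFree.of_isPSolvable hC.five_le PSolvable.isPSolvable_of_isSolvable ⊤
      (f.comp (⊤ : Subgroup K).subtype) fun y => by
        obtain ⟨x, rfl⟩ := hf y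
        exact ⟨⟨x, trivial⟩, rfl⟩

theorem Crit.mem_centerThompson {a : G} (ha : Good p a) (P : Sylow p G)
    (haP : a ∈ (P : Subgroup G)) : a ∈ centerThompsonOf p (P : Subgroup G) := by
  obtain ⟨ho, P₁, haP₁, hP₁a⟩ := ha
  obtain ⟨h, hh⟩ := MulAction.exists_smul_eq G P P₁
  have hcoe : (P₁ : Subgroup G) = MulAut.conj h • (P : Subgroup G) := by
    rw [← hh, Sylow.coe_subgroup_smul]
  set b := h⁻¹ * a * h with hb
  have hbP : b ∈ (P : Subgroup G) := CfsgLib.CoprimeAction.mem_conj_iff.1 (hcoe ▸ haP₁)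
  have hbc : b ∈ centerThompsonOf p (P : Subgroup G) := by
    refine CfsgLib.ThompsonJ.omegaOne_le p _ (CfsgLib.ThompsonJ.omegaOne_center_le _
      (CfsgLib.ThompsonJ.mem_omegaOne ⟨hbP, Subgroup.mem_centralizer_iff.2 fun y hy => ?_⟩ ?_))
    · have h1 : h * y * h⁻¹ ∈ (P₁ : Subgroup G) := by
        rw [hcoe]
        exact CfsgLib.CoprimeAction.mem_conj_iff.2 (by simpa [mul_assoc] using SetLike.mem_coe.1 hy)
      have h2 := congrArg (fun t => h⁻¹ * t * h)
        (Subgroup.mem_centralizer_singleton_iff.1 (hP₁a h1))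
      simpa [hb, mul_assoc] using h2
    · have e := conj_pow (i := p) (a := h⁻¹) (b := a)
      rw [inv_inv] at e
      rw [hb, e, ← ho, pow_orderOf_eq_one]
      simp
  have hfree : ¬ ∃ (H K : Subgroup G) (hK : (K.subgroupOf H).Normal),
      Nonempty ((H ⧸ K.subgroupOf H) ≃* Matrix.SpecialLinearGroup (Fin 2) (ZMod p)) := by
    rintro ⟨H, K, hK, ⟨e⟩⟩
    exact hC.slFree H (e.toMonoidHom.comp (QuotientGroup.mk' _))
      (e.surjective.comp (QuotientGroup.mk'_surjective _))
  obtain ⟨n, hn, hna⟩ := Cfsg.Agent.S0118.result hC.ne_two hfree P {b}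
    (Set.singleton_subset_iff.2 hbP) h⁻¹ (by
      rintro _ ⟨x, rfl, rfl⟩
      show (h⁻¹)⁻¹ * b * h⁻¹ ∈ (P : Subgroup G)
      rw [show (h⁻¹)⁻¹ * b * h⁻¹ = a by rw [hb]; group]
      exact haP)
  have he := hna b rfl
  rw [inv_inv, show h * b * h⁻¹ = a by rw [hb]; group] at he
  rw [← he]
  exact CfsgLib.CoprimeAction.conj_mem' hn hbc

/-- Good elements of a common `p`-subgroup commute. -/
theorem Crit.commute_of_pGroup {T : Subgroup G} (hT : IsPGroup p T) {a b : G} (ha : Good p a)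
    (hb : Good p b) (haT : a ∈ T) (hbT : b ∈ T) : Commute a b := by
  obtain ⟨P, hP⟩ := hT.exists_le_sylow
  exact Subgroup.mem_centralizer_iff.1 (hC.mem_centerThompson hb P (hP hbT)).2 a
    (hC.mem_centerThompson ha P (hP haT)).1

theorem Crit.mem_ext {a : G} (ha : Good p a) {L : Subgroup G} (hL : L ≠ ⊤) (haL : a ∈ L) :
    a ∈ ext p L := by
  haveI := hC.proper L hL
  rw [mem_ext_iff haL]
  set f := QuotientGroup.mk' (pPrimeCore p L) with hf
  set V := pCore p (L ⧸ pPrimeCore p L) with hV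
  haveI : V.Normal := pCore_normal p _
  have hcon : Subgroup.centralizer (V : Set (L ⧸ pPrimeCore p L)) ≤ V :=
    PSolvable.centralizer_pCore_le (PSolvable.isPSolvable_quotient PSolvable.isPSolvable_of_isSolvable _)
      (Cores.pPrimeCore_quotient_pPrimeCore p)
  have hzp : IsPGroup p (Subgroup.zpowers (⟨a, haL⟩ : L)) := IsPGroup.of_card (n := 1) (by
    rw [Nat.card_zpowers, pow_one, Subgroup.orderOf_mk, ha.1])
  obtain ⟨T, hT⟩ := hzp.exists_le_sylow
  have hVT : V ≤ (T : Subgroup L).map f := by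
    have := Cores.pCore_le_sylow (T.mapSurjective (f := f) (QuotientGroup.mk'_surjective _))
    rwa [Sylow.coe_mapSurjective] at this
  have key : ∀ v ∈ V, ∀ i : ℤ, Commute ⁅v, (f ⟨a, haL⟩) ^ i⁆ (f ⟨a, haL⟩) := by
    intro v hv i
    obtain ⟨t, ht, rfl⟩ := hVT hv
    rw [← map_zpow, ← map_commutatorElement]
    refine Commute.map ?_ f
    set TT := (T : Subgroup L).map L.subtype
    have hTT : IsPGroup p TT := T.2.map _
    have haT : a ∈ TT := ⟨_, hT (Subgroup.mem_zpowers _), rfl⟩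
    have htT : (t : G) ∈ TT := ⟨t, ht, rfl⟩
    have h1 : Commute a ((t : G) * a * (t : G)⁻¹) :=
      hC.commute_of_pGroup hTT ha (ha.conj _) haT
        (TT.mul_mem (TT.mul_mem htT haT) (TT.inv_mem htT))
    apply Subtype.ext
    simp only [commutatorElement_def, Subgroup.coe_mul, Subgroup.coe_inv, Subgroup.coe_zpow]
    have h2 : Commute ((t : G) * a ^ i * (t : G)⁻¹ * (a ^ i)⁻¹) a := by
      rw [← conj_zpow]
      exact ((h1.zpow_right i).symm).mul_left (((Commute.refl a).zpow_left i).inv_left)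
    exact h2.eq
  have hquad : ⁅⁅V, Subgroup.zpowers (f ⟨a, haL⟩)⁆, Subgroup.zpowers (f ⟨a, haL⟩)⁆ = ⊥ := by
    rw [Subgroup.commutator_eq_bot_iff_le_centralizer, Subgroup.commutator_le]
    rintro v hv _ ⟨i, rfl⟩
    refine Subgroup.mem_centralizer_iff.2 ?_
    rintro _ ⟨j, rfl⟩
    exact ((key v hv i).zpow_right j).eq.symm
  have hst : IsPStableOn p V :=
    ((hC.slFree.subgroup L).of_surjective f (QuotientGroup.mk'_surjective _)).isPStableOn
      hC.ne_two V (Cores.isPGroup_pCore p _)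
  have h := hst _ hquad
  have := Cores.comap_pCore_quotient (p := p) (Subgroup.centralizer (V : Set (L ⧸ pPrimeCore p L)))
    ((Cores.isPGroup_pCore p _).to_le hcon)
  exact this.le h

theorem Crit.exists_conj_commute {a b : G} (ha : Good p a) (hb : Good p b) {L : Subgroup G}
    (hL : L ≠ ⊤) (haL : a ∈ L) (hbL : b ∈ L) : ∃ k ∈ core p L, Commute a (k⁻¹ * b * k) := by
  haveI := hC.proper L hL
  set P := pPrimePCore p L with hP
  obtain ⟨a', ha', hae⟩ := hC.mem_ext ha hL haL
  obtain ⟨b', hb', hbe⟩ := hC.mem_ext hb hL hbL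
  have hz : ∀ (c : L) (hc : c ∈ P), Good p (c : G) →
      IsPGroup p (Subgroup.zpowers (⟨c, hc⟩ : P)) := fun c hc h => IsPGroup.of_card (n := 1) (by
    rw [Nat.card_zpowers, pow_one, Subgroup.orderOf_mk, ← Subgroup.orderOf_coe, h.1])
  obtain ⟨T, hT⟩ := (hz a' ha' (by rwa [show (a' : G) = a from hae])).exists_le_sylow
  obtain ⟨T', hT'⟩ := (hz b' hb' (by rwa [show (b' : G) = b from hbe])).exists_le_sylow
  obtain ⟨g, hg⟩ := MulAction.exists_smul_eq P T T'
  have hgmem : (g : L) ∈ pPrimeCore p L ⊔ (T : Subgroup P).map P.subtype := by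
    rw [PSolvable.pPrimeCore_sup_sylow T]; exact g.2
  rw [Subgroup.mem_sup_of_normal_left] at hgmem
  obtain ⟨k, hk, _, ⟨t, ht, rfl⟩, he⟩ := hgmem
  refine ⟨(k : G), ⟨k, hk, rfl⟩, ?_⟩
  have hbT : (⟨b', hb'⟩ : P) ∈ (T' : Subgroup P) := hT' (Subgroup.mem_zpowers _)
  rw [← hg, Sylow.coe_subgroup_smul, CfsgLib.CoprimeAction.mem_conj_iff] at hbT
  have h2 : t * (g⁻¹ * ⟨b', hb'⟩ * g) * t⁻¹ ∈ (T : Subgroup P) :=
    mul_mem (mul_mem ht hbT) (inv_mem ht)
  set TT := ((T : Subgroup P).map P.subtype).map L.subtype with hTT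
  refine hC.commute_of_pGroup ((T.2.map _).map _ : IsPGroup p TT) ha (by
      have := hb.conj (k : G)⁻¹
      rwa [inv_inv] at this)
    ⟨a', ⟨⟨a', ha'⟩, hT (Subgroup.mem_zpowers _), rfl⟩, hae⟩
    ⟨_, ⟨_, h2, rfl⟩, ?_⟩
  have he' : (g : G) = (k : G) * (t : G) := by
    have := congrArg Subtype.val he
    simpa using this.symm
  simp only [Subgroup.coe_subtype, Subgroup.coe_mul, Subgroup.coe_inv, he', show (b' : G) = b from hbe]
  group

theorem Crit.commutatorElement_mem_core {a : G} (ha : Good p a) {H L : Subgroup G} (hL : L ≠ ⊤)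
    (haL : a ∈ L) (hHL : H ≤ L) (hH : ¬ p ∣ Nat.card H)
    (haH : a ∈ Subgroup.normalizer (H : Set G)) {h : G} (hh : h ∈ H) : ⁅h, a⁆ ∈ core p L := by
  haveI := hC.proper L hL
  have hmem : (⟨a, haL⟩ : L) ∈ pPrimePCore p L := by
    obtain ⟨a', ha', hae⟩ := hC.mem_ext ha hL haL
    obtain rfl : a' = ⟨a, haL⟩ := Subtype.ext hae
    exact ha'
  have hcm := BGAppendix.commute_mk_of_mem_pPrimePCore (Y := H.subgroupOf L)
    (by rw [Nat.card_congr (Subgroup.subgroupOfEquivOfLe hHL).toEquiv]; exact hH)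
    hmem (by
      refine CfsgLib.CoprimeAction.mem_normalizer_of_conj_mem fun y hy => ?_
      show a * (y : G) * a⁻¹ ∈ H
      exact CfsgLib.CoprimeAction.conj_mem haH hy)
    (y := ⟨h, hHL hh⟩) hh
  refine ⟨⁅(⟨h, hHL hh⟩ : L), ⟨a, haL⟩⁆, (QuotientGroup.eq_one_iff _).1 ?_, rfl⟩
  show QuotientGroup.mk' (pPrimeCore p L) _ = 1
  rw [map_commutatorElement, commutatorElement_eq_one_iff_commute]
  exact hcm.symm

theorem Crit.mem_core_of_centralizer_core {a z : G} (ha : Good p a) {L : Subgroup G} (hL : L ≠ ⊤)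
    (haL : a ∈ L) (hz : z ∈ core p (Subgroup.centralizer ({a} : Set G))) (hzL : z ∈ L) :
    z ∈ core p L := by
  haveI := hC.proper L hL
  set Y := (core p (Subgroup.centralizer ({a} : Set G))).subgroupOf L with hY
  have h := BGAppendix.le_pPrimeCore_of_normal_centralizer (P := Subgroup.zpowers (⟨a, haL⟩ : L))
    (Y := Y) (IsPGroup.of_card (n := 1) (by
      rw [Nat.card_zpowers, pow_one, Subgroup.orderOf_mk, ha.1]))
    (fun hd => not_dvd_card_core (p := p) (Subgroup.centralizer ({a} : Set G)) (hd.trans (by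
      rw [← Subgroup.card_map_of_injective (K := Y) L.subtype_injective]
      exact Subgroup.card_dvd_of_le (Subgroup.map_comap_le _ _))))
    (fun y hy => Subgroup.mem_centralizer_iff.2 (by
      rintro _ ⟨i, rfl⟩
      apply Subtype.ext
      simp only [Subgroup.coe_mul, Subgroup.coe_zpow]
      exact ((show Commute (y : G) a from
        Subgroup.mem_centralizer_singleton_iff.1 (core_le p _ hy)).zpow_right i).eq.symm))
    (fun c hc => CfsgLib.CoprimeAction.mem_normalizer_of_conj_mem fun y hy => by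
      refine CfsgLib.CoprimeAction.conj_mem (H := core p (Subgroup.centralizer ({a} : Set G)))
        (self_le_normalizer_core p _ (Subgroup.mem_centralizer_singleton_iff.2 ?_)) hy
      have := congrArg Subtype.val (Subgroup.mem_centralizer_iff.1 hc _ (Subgroup.mem_zpowers _))
      simpa using this.symm)
  exact ⟨⟨z, hzL⟩, h hz, rfl⟩

/-- `O_{p'}` of the centralizer of a good element is trivial. -/
theorem Crit.core_centralizer_eq_bot {a : G} (ha : Good p a) :
    core p (Subgroup.centralizer ({a} : Set G)) = ⊥ := by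
  classical
  rw [Subgroup.eq_bot_iff_forall]
  intro z hz
  by_contra hz1
  let Ω : Set G := {w | ∃ b u : G, Good p b ∧ Commute b u ∧ PPrime p u ∧ w = b * u}
  have hmul : ∀ x y : G, Commute x y → x ^ p = 1 → PPrime p y →
      x ∈ Subgroup.zpowers (x * y) ∧ y ∈ Subgroup.zpowers (x * y) := by
    intro x y hxy hx hy
    obtain ⟨m, hm, hym⟩ := hy
    have h1 : x ∈ Subgroup.zpowers (x * y) :=
      mem_of_pow_mem' (m := m) (n := p) ((hp.out.coprime_iff_not_dvd.2 hm).symm)
        (by rw [show x ^ m = (x * y) ^ m by rw [hxy.mul_pow, hym, mul_one]]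
            exact Subgroup.pow_mem _ (Subgroup.mem_zpowers _) _)
        (by rw [hx]; exact one_mem _)
    refine ⟨h1, ?_⟩
    have := Subgroup.mul_mem _ (Subgroup.inv_mem _ h1) (Subgroup.mem_zpowers (x * y))
    rwa [inv_mul_cancel_left] at this
  have hza : Commute a z := (Subgroup.mem_centralizer_singleton_iff.1 (core_le p _ hz)).symm
  have hstep : ∀ w ∈ Ω, z * w ∈ Ω := by
    rintro _ ⟨b, u, hb, hbu, hu, rfl⟩
    set L := Subgroup.closure ({a * z, b * u} : Set G) with hLdef
    have hLtop : L ≠ ⊤ := hC.pair _ _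
    haveI := hC.proper L hLtop
    have hzl : ∀ {x : G}, x ∈ ({a * z, b * u} : Set G) → Subgroup.zpowers x ≤ L := fun hx =>
      Subgroup.zpowers_le.2 (Subgroup.subset_closure hx)
    obtain ⟨h1, h2⟩ := hmul a z hza ha.pow_eq_one (pprime_of_mem (not_dvd_card_core _) hz)
    obtain ⟨h3, h4⟩ := hmul b u hbu hb.pow_eq_one hu
    have haL : a ∈ L := hzl (Or.inl rfl) h1
    have hzL : z ∈ L := hzl (Or.inl rfl) h2
    have hbL : b ∈ L := hzl (Or.inr rfl) h3
    have huL : u ∈ L := hzl (Or.inr rfl) h4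
    set K := core p L with hK
    set π := QuotientGroup.mk' (pPrimeCore p L) with hπ
    have hzK : π ⟨z, hzL⟩ = 1 := (mem_core_iff hzL).1 (hC.mem_core_of_centralizer_core ha hLtop haL hz hzL)
    obtain ⟨mu, hmu, humu⟩ := hu
    set h := z * (b * u) with hh
    have hhL : h ∈ L := L.mul_mem hzL (L.mul_mem hbL huL)
    set n := orderOf h with hn
    have hn0 : n ≠ 0 := (orderOf_pos h).ne'
    set m := n / p ^ n.factorization p with hm
    have hcop : Nat.Coprime (mu * m) p :=
      Nat.Coprime.mul_left ((hp.out.coprime_iff_not_dvd.2 hmu).symm)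
        (Nat.coprime_ordCompl hp.out hn0).symm
    obtain ⟨c, hc⟩ := Nat.exists_mul_mod_eq_one_of_coprime hcop hp.out.one_lt
    set e := mu * m * c with he
    set h1' := h ^ e with hh1
    have himg : π ⟨h, hhL⟩ = π ⟨b, hbL⟩ * π ⟨u, huL⟩ := by
      rw [show (⟨h, hhL⟩ : L) = ⟨z, hzL⟩ * (⟨b, hbL⟩ * ⟨u, huL⟩) from rfl, map_mul, hzK, one_mul,
        map_mul]
    have hbp : π ⟨b, hbL⟩ ^ p = 1 := by
      rw [← map_pow, show (⟨b, hbL⟩ : L) ^ p = 1 from Subtype.ext (by simpa using hb.pow_eq_one),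
        map_one]
    have himg1 : π ⟨h1', L.pow_mem hhL e⟩ = π ⟨b, hbL⟩ := by
      rw [show (⟨h1', L.pow_mem hhL e⟩ : L) = ⟨h, hhL⟩ ^ e from Subtype.ext (by simp [hh1]),
        map_pow, himg,
        (show Commute (π ⟨b, hbL⟩) (π ⟨u, huL⟩) from
          (show Commute (⟨b, hbL⟩ : L) ⟨u, huL⟩ from Subtype.ext hbu.eq).map π).mul_pow]
      rw [show π ⟨u, huL⟩ ^ e = 1 by
        rw [← map_pow, show (⟨u, huL⟩ : L) ^ e = 1 from Subtype.ext (by
          simp [he, mul_assoc, pow_mul, humu]), map_one], mul_one]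
      conv_lhs => rw [← Nat.div_add_mod e p]
      rw [he, hc.2, pow_add, pow_mul, hbp, one_pow, one_mul, pow_one]
    have hk1 : h1' ^ p ^ n.factorization p = 1 := by
      rw [hh1, ← pow_mul, ← orderOf_dvd_iff_pow_eq_one, ← hn]
      conv_lhs => rw [← Nat.ordProj_mul_ordCompl_eq_self n p, ← hm]
      rw [he, mul_comm (mu * m * c)]
      exact mul_dvd_mul_left _ (Dvd.intro (mu * c) (by ring))
    have hcong : h1' * b⁻¹ ∈ K := by
      rw [mem_core_iff (L.mul_mem (L.pow_mem hhL e) (L.inv_mem hbL))]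
      show π (⟨h1', L.pow_mem hhL e⟩ * ⟨b, hbL⟩⁻¹) = 1
      rw [map_mul, map_inv, himg1, mul_inv_cancel]
    have ho : orderOf h1' = p := by
      refine orderOf_eq_prime ?_ fun h0 => ?_
      · have hpK : h1' ^ p ∈ K := by
          rw [mem_core_iff (L.pow_mem (L.pow_mem hhL e) p)]
          show π (⟨h1', L.pow_mem hhL e⟩ ^ p) = 1
          rw [map_pow, himg1, hbp]
        exact eq_one_of_pprime (pprime_of_mem (not_dvd_card_core _) hpK)
          (k := n.factorization p) (by rw [← pow_mul, mul_comm, pow_mul, hk1, one_pow])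
      · rw [h0, one_mul] at hcong
        exact hb.ne_one (eq_one_of_zpowers_of_mem hb (not_dvd_card_core L)
          (Subgroup.mem_zpowers b) (by simpa using K.inv_mem hcong))
    obtain ⟨k, hk, hkb⟩ := exists_conj_of_congr hb (not_dvd_card_core L)
      (self_le_normalizer_core p L hbL) ho hcong
    refine ⟨h1', h1'⁻¹ * h, hkb ▸ hb.conj k, ?_, ?_, by rw [mul_inv_cancel_left]⟩
    · exact ((Commute.refl h1').inv_right).mul_right ((Commute.refl h).pow_left e)
    · refine ⟨mu * Nat.card K, fun hd => (hp.out.dvd_mul.1 hd).elim hmu (not_dvd_card_core L), ?_⟩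
      have hmem : h1'⁻¹ * h ∈ L := L.mul_mem (L.inv_mem (L.pow_mem hhL e)) hhL
      have hpow : (h1'⁻¹ * h) ^ mu ∈ K := by
        rw [mem_core_iff (L.pow_mem hmem mu)]
        show π ((⟨h1', L.pow_mem hhL e⟩⁻¹ * ⟨h, hhL⟩) ^ mu) = 1
        rw [map_pow, map_mul, map_inv, himg1, himg, inv_mul_cancel_left, ← map_pow,
          show (⟨u, huL⟩ : L) ^ mu = 1 from Subtype.ext (by simpa using humu), map_one]
      rw [pow_mul]
      exact congrArg Subtype.val (pow_card_eq_one' (x := (⟨_, hpow⟩ : K)))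
  let M : Submonoid G :=
    { carrier := {g | ∀ w ∈ Ω, g * w ∈ Ω}
      one_mem' := fun w hw => by rwa [one_mul]
      mul_mem' := fun {x y} hx hy w hw => by rw [mul_assoc]; exact hx _ (hy w hw) }
  let St : Subgroup G :=
    { M with
      inv_mem' := fun {x} hx => by
        show x⁻¹ ∈ M
        rw [show x⁻¹ = x ^ (orderOf x - 1) from inv_eq_of_mul_eq_one_right (by
          rw [← pow_succ', Nat.sub_add_cancel (orderOf_pos x), pow_orderOf_eq_one])]
        exact M.pow_mem hx _ }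
  have hΩc : ∀ g : G, ∀ w ∈ Ω, g * w * g⁻¹ ∈ Ω := by
    rintro g _ ⟨b, u, hb, hbu, ⟨m, hm, hum⟩, rfl⟩
    exact ⟨g * b * g⁻¹, g * u * g⁻¹, hb.conj g, by
        rw [Commute, SemiconjBy]
        calc g * b * g⁻¹ * (g * u * g⁻¹) = g * (b * u) * g⁻¹ := by group
          _ = g * (u * b) * g⁻¹ := by rw [hbu.eq]
          _ = g * u * g⁻¹ * (g * b * g⁻¹) := by group,
      ⟨m, hm, by rw [conj_pow, hum, mul_one, mul_inv_cancel]⟩, by group⟩
  have hStn : St.Normal := ⟨fun x hx g w hw => by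
    have h1 := hx _ (hΩc g⁻¹ w hw)
    have h2 := hΩc g _ h1
    have e : g * x * g⁻¹ * w = g * (x * (g⁻¹ * w * (g⁻¹)⁻¹)) * g⁻¹ := by group
    rw [e]
    exact h2⟩
  rcases hC.simple St hStn with h | h
  · exact hz1 (Subgroup.mem_bot.1 (h ▸ (show z ∈ St from hstep)))
  · obtain ⟨b, u, hb, hbu, ⟨m, hm, hum⟩, he⟩ :=
      (show a⁻¹ ∈ St from h.symm ▸ Subgroup.mem_top _) a
        ⟨a, 1, ha, Commute.one_right a, ⟨1, hp.out.not_dvd_one, one_pow 1⟩, (mul_one a).symm⟩
    rw [inv_mul_cancel] at he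
    have hbu' : b = u⁻¹ := eq_inv_of_mul_eq_one_left he.symm
    exact hb.ne_one (eq_one_of_pprime ⟨m, hm, by rw [hbu', inv_pow, hum, inv_one]⟩
      (k := 1) (by rw [pow_one, hb.pow_eq_one]))

/-- A `p'`-element of `C(a)` lying in a `p'`-core together with each element of `C(a)` is trivial. -/
theorem Crit.eq_one_of_centralizer {a u : G} (ha : Good p a)
    (hau : u ∈ Subgroup.centralizer ({a} : Set G)) (hu : PPrime p u)
    (h : ∀ c ∈ Subgroup.centralizer ({a} : Set G), ∃ L : Subgroup G, L ≠ ⊤ ∧ u ∈ core p L ∧ c ∈ L) :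
    u = 1 := by
  set C := Subgroup.centralizer ({a} : Set G)
  haveI := hC.proper C (hC.centralizer_ne_top ha.ne_one)
  have hbot : pPrimeCore p C = ⊥ :=
    (Subgroup.map_eq_bot_iff_of_injective _ C.subtype_injective).1 (hC.core_centralizer_eq_bot ha)
  have hcon := PSolvable.centralizer_pCore_le (G := C) PSolvable.isPSolvable_of_isSolvable hbot
  have hmem : (⟨u, hau⟩ : C) ∈ pCore p C := by
    refine hcon (Subgroup.mem_centralizer_iff.2 fun v hv => ?_)
    obtain ⟨L, -, huL, hvL⟩ := h v v.2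
    set d : C := (⟨u, hau⟩ : C)⁻¹ * (v * ⟨u, hau⟩ * v⁻¹) with hd
    have hdL : (d : G) ∈ core p L := by
      simp only [hd, Subgroup.coe_mul, Subgroup.coe_inv]
      exact mul_mem (inv_mem huL)
        (CfsgLib.CoprimeAction.conj_mem (self_le_normalizer_core p L hvL) huL)
    have hdp : d ∈ pCore p C := by
      rw [hd, show (⟨u, hau⟩ : C)⁻¹ * (v * ⟨u, hau⟩ * v⁻¹)
        = ((⟨u, hau⟩ : C)⁻¹ * v * ⟨u, hau⟩) * v⁻¹ by group]
      refine mul_mem ?_ (inv_mem hv)
      have := (pCore_normal p C).conj_mem v hv (⟨u, hau⟩ : C)⁻¹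
      rwa [inv_inv] at this
    obtain ⟨k, hk⟩ := CfsgLib.Cores.isPGroup_pCore p C ⟨d, hdp⟩
    have hd1 : (d : G) = 1 := eq_one_of_pprime (pprime_of_mem (not_dvd_card_core L) hdL)
      (k := k) (by have := congrArg (fun t : pCore p C => ((t : C) : G)) hk; simpa using this)
    rw [OneMemClass.coe_eq_one, hd, inv_mul_eq_one] at hd1
    exact (eq_mul_inv_iff_mul_eq.1 hd1).symm
  obtain ⟨k, hk⟩ := CfsgLib.Cores.isPGroup_pCore p C ⟨_, hmem⟩
  exact eq_one_of_pprime hu (k := k)
    (by have := congrArg (fun t : pCore p C => ((t : C) : G)) hk; simpa using this)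

/-- The normal closure of the core part of `⟨a, k a k⁻¹⟩` under a `p'`-element `u` of `C(a)` has
no nontrivial fixed point. -/
theorem Crit.eq_one_of_mem_closure {a k u v : G} (ha : Good p a) {L : Subgroup G} (hL : L ≠ ⊤)
    (haL : a ∈ L) (hk : k ∈ core p L) (hu : u ∈ core p L) (hau : Commute a u)
    (hv : v ∈ Subgroup.closure {x | ∃ y ∈ Subgroup.closure
        (((Subgroup.closure ({a, k * a * k⁻¹} : Set G) ⊓ core p L : Subgroup G) : Set G) ∪ {u}),
        ∃ d ∈ Subgroup.closure ({a, k * a * k⁻¹} : Set G) ⊓ core p L, x = y * d * y⁻¹})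
    (hav : Commute a v) : v = 1 := by
  set b := k * a * k⁻¹ with hb
  set D := Subgroup.closure ({a, b} : Set G) with hD
  have hkL := core_le p L hk
  have hbL : b ∈ L := L.mul_mem (L.mul_mem hkL haL) (L.inv_mem hkL)
  have hDL : D ≤ L := (Subgroup.closure_le _).2 (by rintro _ (rfl | rfl) <;> assumption)
  have haD : a ∈ D := Subgroup.subset_closure (Or.inl rfl)
  have hbD : b ∈ D := Subgroup.subset_closure (Or.inr rfl)
  have hbK : b * a⁻¹ ∈ core p L := by
    rw [hb, show k * a * k⁻¹ * a⁻¹ = k * (a * k⁻¹ * a⁻¹) by group]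
    exact mul_mem hk (CfsgLib.CoprimeAction.conj_mem (self_le_normalizer_core p L haL) (inv_mem hk))
  set N := D ⊓ core p L with hN
  have haN : a ∈ Subgroup.normalizer (N : Set G) :=
    CfsgLib.CoprimeAction.mem_normalizer_of_conj_mem fun x hx =>
      ⟨D.mul_mem (D.mul_mem haD hx.1) (D.inv_mem haD),
        CfsgLib.CoprimeAction.conj_mem (self_le_normalizer_core p L haL) hx.2⟩
  obtain ⟨k', hk', hbk'⟩ := exists_conj_of_congr (N := N) ha
    (fun hd => not_dvd_card_core (p := p) L (hd.trans (Subgroup.card_dvd_of_le inf_le_right)))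
    haN (ha.conj k).1 ⟨D.mul_mem hbD (D.inv_mem haD), hbK⟩
  have hvK : v ∈ core p L := by
    refine (Subgroup.closure_le _).2 ?_ hv
    rintro _ ⟨y, hy, d, hd, rfl⟩
    have hy' : y ∈ core p L := by
      refine (Subgroup.closure_le _).2 ?_ hy
      rintro z (hz | hz)
      · exact hz.2
      · rw [Set.mem_singleton_iff] at hz; exact hz ▸ hu
    exact mul_mem (mul_mem hy' hd.2) (inv_mem hy')
  refine hC.eq_one_of_centralizer ha (Subgroup.mem_centralizer_singleton_iff.2 hav.symm.eq)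
    (pprime_of_mem (not_dvd_card_core L) hvK) fun c hc => ?_
  have hcc := Subgroup.mem_centralizer_singleton_iff.1 hc
  set L' := Subgroup.closure ({a * u, k' * c} : Set G) with hL'
  have hL'top : L' ≠ ⊤ := hC.pair _ _
  obtain ⟨m, hm, hum⟩ := pprime_of_mem (p := p) (not_dvd_card_core L) hu
  have ha' : a ∈ L' := by
    refine mem_of_pow_mem' (m := m) (n := p) ((hp.out.coprime_iff_not_dvd.2 hm).symm) ?_
      (by rw [ha.pow_eq_one]; exact one_mem _)
    rw [show a ^ m = (a * u) ^ m by rw [hau.mul_pow, hum, mul_one]]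
    exact L'.pow_mem (Subgroup.subset_closure (Or.inl rfl)) m
  have hu' : u ∈ L' := by
    have := L'.mul_mem (L'.inv_mem ha') (Subgroup.subset_closure (Or.inl rfl) : a * u ∈ L')
    rwa [inv_mul_cancel_left] at this
  have hy0 : k' * c ∈ L' := Subgroup.subset_closure (Or.inr rfl)
  have hb' : b ∈ L' := by
    have : b = k' * c * a * (k' * c)⁻¹ := by
      rw [hb, hbk', mul_inv_rev, show k' * c * a * (c⁻¹ * k'⁻¹) = k' * (c * a * c⁻¹) * k'⁻¹ by group,
        hcc]
      group
    rw [this]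
    exact L'.mul_mem (L'.mul_mem hy0 ha') (L'.inv_mem hy0)
  have hDL' : D ≤ L' := (Subgroup.closure_le _).2 (by rintro _ (rfl | rfl) <;> assumption)
  refine ⟨L', hL'top, (Subgroup.closure_le _).2 ?_ hv, ?_⟩
  · rintro _ ⟨y, hy, d, hd, rfl⟩
    have hyL' : y ∈ L' := by
      refine (Subgroup.closure_le _).2 ?_ hy
      rintro z (hz | hz)
      · exact hDL' hz.1
      · rw [Set.mem_singleton_iff] at hz; exact hz ▸ hu'
    have hdK : d ∈ core p L' := by
      refine mem_core_of_mem_ext ((Subgroup.closure_le _).2 ?_ hd.1)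
        (pprime_of_mem (not_dvd_card_core L) hd.2)
      rintro _ (rfl | rfl)
      · exact hC.mem_ext ha hL'top ha'
      · exact hC.mem_ext (ha.conj k) hL'top hb'
    exact CfsgLib.CoprimeAction.conj_mem (self_le_normalizer_core p L' hyL') hdK
  · have := L'.mul_mem (L'.inv_mem (hDL' hk'.1)) hy0
    rwa [inv_mul_cancel_left] at this

/-- A `p'`-subgroup `H = [H, a]` is centralized by no element fixed by `a` and is nilpotent. -/
theorem Crit.fpf_of_commutator_eq {a : G} (ha : Good p a) {H : Subgroup G}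
    (hH : ¬ p ∣ Nat.card H) (haH : a ∈ Subgroup.normalizer (H : Set G))
    (hgen : ⁅H, Subgroup.zpowers a⁆ = H) :
    (∀ h ∈ H, Commute a h → h = 1) ∧ Group.IsNilpotent H := by
  set L := H ⊔ Subgroup.zpowers a with hLdef
  have hLN : L ≤ Subgroup.normalizer (H : Set G) :=
    sup_le Subgroup.le_normalizer (Subgroup.zpowers_le.2 haH)
  have hHtop : H ≠ ⊤ := hC.ne_top_of_not_dvd ha hH
  have hL : L ≠ ⊤ := by
    intro h
    by_cases h1 : H = ⊥
    · refine hC.notSolv (Group.isSolvable_of_comm fun x y => ?_)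
      rw [hLdef, h1, bot_sup_eq] at h
      obtain ⟨i, rfl⟩ := (h ▸ Subgroup.mem_top x : x ∈ Subgroup.zpowers a)
      obtain ⟨j, rfl⟩ := (h ▸ Subgroup.mem_top y : y ∈ Subgroup.zpowers a)
      exact zpow_mul_comm a i j
    · exact hC.normalizer_ne_top h1 hHtop (top_le_iff.1 (h ▸ hLN))
  have haL : a ∈ L := (le_sup_right : Subgroup.zpowers a ≤ L) (Subgroup.mem_zpowers a)
  have hHK : H ≤ core p L := le_core le_sup_left hLN hH
  haveI := hC.proper H hHtop
  let φ : H ≃* H := Subgroup.normalizerMonoidHom H ⟨a, haH⟩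
  have hφ : ∀ x : H, ((φ x : H) : G) = a * x * a⁻¹ := fun x => rfl
  have hit : ∀ (i : ℕ) (x : H), ((φ^[i] x : H) : G) = a ^ i * x * (a ^ i)⁻¹ := by
    intro i
    induction i with
    | zero => intro x; simp
    | succ i ih => intro x; rw [Function.iterate_succ_apply', hφ, ih, pow_succ']; group
  have hord : ∀ x : H, φ^[p] x = x := fun x => Subtype.ext (by rw [hit, ha.pow_eq_one]; simp)
  have hcomm : comm φ ⊤ = ⊤ := by
    apply Subgroup.map_injective H.subtype_injective
    rw [← MonoidHom.range_eq_map, Subgroup.range_subtype]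
    refine le_antisymm (Subgroup.map_subtype_le _) ?_
    conv_lhs => rw [← hgen]
    rw [Subgroup.commutator_le]
    intro h hh x hx
    obtain ⟨i, rfl⟩ := mem_powers_iff_mem_zpowers.2 hx
    have key : ∀ (i : ℕ), (⟨h, hh⟩ : H) * φ^[i] (⟨h, hh⟩ : H)⁻¹ ∈ comm φ ⊤ := by
      intro i
      induction i with
      | zero => simp
      | succ i ih =>
        set w := φ^[i] (⟨h, hh⟩ : H)⁻¹ with hw
        have : (⟨h, hh⟩ : H) * φ^[i+1] (⟨h, hh⟩ : H)⁻¹ = ((⟨h, hh⟩ : H) * w) * (w⁻¹ * φ w) := by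
          rw [Function.iterate_succ_apply', ← hw]; group
        rw [this]
        exact mul_mem ih (Subgroup.subset_closure ⟨w, Subgroup.mem_top _, rfl⟩)
    refine ⟨_, key i, ?_⟩
    simp only [Subgroup.coe_subtype, Subgroup.coe_mul, hit, Subgroup.coe_inv, commutatorElement_def]
    group
  have hncl : NclFPF φ := by
    intro k u hu v hv hv'
    have hau : Commute a (u : G) := mul_inv_eq_iff_eq_mul.1 ((hφ u).symm.trans (congrArg Subtype.val hu))
    have hav : Commute a (v : G) := mul_inv_eq_iff_eq_mul.1 ((hφ v).symm.trans (congrArg Subtype.val hv'))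
    apply Subtype.ext
    refine hC.eq_one_of_mem_closure ha hL haL (hHK (k⁻¹).2) (hHK u.2) hau ?_ hav
    set D := Subgroup.closure ({a, ((k⁻¹ : H) : G) * a * ((k⁻¹ : H) : G)⁻¹} : Set G) ⊓ core p L
      with hD
    have haD : a ∈ Subgroup.closure ({a, ((k⁻¹ : H) : G) * a * ((k⁻¹ : H) : G)⁻¹} : Set G) :=
      Subgroup.subset_closure (Or.inl rfl)
    have horb : orb φ k ≤ D.comap H.subtype := by
      refine (Subgroup.closure_le _).2 ?_
      rintro _ ⟨i, rfl⟩
      show ((φ^[i] (k⁻¹ * φ k) : H) : G) ∈ D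
      refine ⟨?_, hHK (Subtype.coe_prop _)⟩
      rw [hit, Subgroup.coe_mul, hφ, Subgroup.coe_inv,
        show (k : G)⁻¹ * (a * k * a⁻¹) = ((k : G)⁻¹ * a * ((k : G)⁻¹)⁻¹) * a⁻¹ by group]
      refine Subgroup.mul_mem _ (Subgroup.mul_mem _ (Subgroup.pow_mem _ haD i)
        (Subgroup.mul_mem _ ?_ (Subgroup.inv_mem _ haD))) (Subgroup.inv_mem _ (Subgroup.pow_mem _ haD i))
      exact Subgroup.subset_closure (Or.inr rfl)
    have hle : ncl φ k u ≤ (Subgroup.closure {x | ∃ y ∈ Subgroup.closure ((D : Set G) ∪ {(u : G)}),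
        ∃ d ∈ D, x = y * d * y⁻¹}).comap H.subtype := by
      refine (Subgroup.closure_le _).2 ?_
      rintro _ ⟨y, hy, d, hd, rfl⟩
      refine Subgroup.subset_closure ⟨(y : G), ?_, (d : G), horb hd, by simp⟩
      have : Subgroup.closure ((orb φ k : Set H) ∪ {u}) ≤
          (Subgroup.closure ((D : Set G) ∪ {(u : G)})).comap H.subtype := by
        refine (Subgroup.closure_le _).2 ?_
        rintro z (hz | hz)
        · exact Subgroup.subset_closure (Or.inl (horb hz))
        · rw [Set.mem_singleton_iff] at hz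
          exact Subgroup.subset_closure (Or.inr (by rw [hz]; rfl))
      exact this hy
    exact hle hv
  obtain ⟨h1, h2⟩ := isFPF_of_nclFPF hC.ne_two hH hord hcomm hncl
  refine ⟨fun h hh hah => ?_, h2⟩
  exact congrArg Subtype.val (h1.1 ⟨h, hh⟩ (Subtype.ext (by
    rw [hφ]; exact mul_inv_eq_iff_eq_mul.2 hah.eq)))

end CfsgLib.MetacyclicP.TwoGen
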